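import Cfsg.Agent.Tits.Core
import Cfsg.Agent.Tits.Exchange
import Cfsg.Agent.Tits.OppRes

/-!
# S2451 (helper82): the Weyl group of type `G₂` as the dihedral group of order 12

`exists_dih` : an isomorphism `e : W ≃* DihedralGroup 6` with `e s₀ = sr 0`, `e s₁ = sr 1`, and the length function is `len`.
-/

set_option autoImplicit false

namespace Cfsg.Agent.H82.AH.Hex

open DihedralGroup Cfsg.Agent.Tits.Core

/-- The length function. -/
def len : DihedralGroup 6 → ℕ
  | .r k => ![0, 2, 4, 6, 4, 2] k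
  | .sr k => ![1, 1, 3, 5, 5, 3] k

/-- The generators. -/
def gen : Fin 2 → DihedralGroup 6 := ![sr 0, sr 1]

theorem len_gen_mul : ∀ (i : Fin 2) (d : DihedralGroup 6), len (gen i * d) ≤ len d + 1 := by decide

theorem len_one : len 1 = 0 := by decide

/-- A reduced word. -/
def word : DihedralGroup 6 → List (Fin 2)
  | .r k => ![[], [0, 1], [0, 1, 0, 1], [0, 1, 0, 1, 0, 1], [1, 0, 1, 0], [1, 0]] k
  | .sr k => ![[0], [1], [1, 0, 1], [1, 0, 1, 0, 1], [0, 1, 0, 1, 0], [0, 1, 0]] k

theorem word_ok : ∀ d : DihedralGroup 6, (word d).length = len d ∧ ((word d).map gen).prod = d := by decide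

theorem liftable : CoxeterMatrix.G₂.IsLiftable gen := by
  intro i j
  revert i j
  decide

variable {W : Type*} [Group W] (cs : CoxeterSystem CoxeterMatrix.G₂ W)

/-- The homomorphism. -/
noncomputable def hom : W →* DihedralGroup 6 := cs.lift ⟨gen, liftable⟩

theorem hom_simple (i : Fin 2) : hom cs (cs.simple i) = gen i := cs.lift_apply_simple liftable i

theorem hom_wordProd (ω : List (Fin 2)) : hom cs (cs.wordProd ω) = (ω.map gen).prod := by
  induction ω with
  | nil => rw [cs.wordProd_nil, map_one]; rfl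
  | cons i ω ih => rw [cs.wordProd_cons, map_mul, ih, hom_simple, List.map_cons, List.prod_cons]

theorem len_le (w : W) : len (hom cs w) ≤ cs.length w := by
  obtain ⟨ω, hω, rfl⟩ := cs.exists_isReduced w
  rw [hω.eq]
  clear hω
  induction ω with
  | nil => rw [cs.wordProd_nil, map_one, len_one]; exact Nat.zero_le _
  | cons i ω ih =>
    rw [cs.wordProd_cons, map_mul, hom_simple, List.length_cons]
    exact (len_gen_mul i _).trans (Nat.succ_le_succ ih)

/-- the elements -/
theorem cases_w (w : W) : ∃ k : Fin 6, w = (cs.simple 0 * cs.simple 1) ^ (k : ℕ) ∨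
    w = cs.simple 0 * (cs.simple 0 * cs.simple 1) ^ (k : ℕ) := by
  have h6 : (cs.simple 0 * cs.simple 1) ^ 6 = 1 := cs.simple_mul_simple_pow 0 1
  have haa : cs.simple 0 * cs.simple 0 = 1 := cs.simple_mul_simple_self 0
  have hbb : cs.simple 1 * cs.simple 1 = 1 := cs.simple_mul_simple_self 1
  have hred : ∀ n : ℕ, ∃ k : Fin 6, (cs.simple 0 * cs.simple 1) ^ n = (cs.simple 0 * cs.simple 1) ^ (k : ℕ) := by
    intro n
    refine ⟨⟨n % 6, Nat.mod_lt _ (by norm_num)⟩, ?_⟩
    conv_lhs => rw [← Nat.div_add_mod n 6, pow_add, pow_mul, h6, one_pow, one_mul]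
  induction w using cs.simple_induction_left with
  | one => exact ⟨0, Or.inl (by simp)⟩
  | mul_simple_left w i ih =>
    obtain ⟨k, hk | hk⟩ := ih
    · fin_cases i
      · exact ⟨k, Or.inr (by rw [hk]; rfl)⟩
      · obtain ⟨k', hk'⟩ := hred (k + 1)
        refine ⟨k', Or.inr ?_⟩
        rw [← hk', hk, pow_succ', ← mul_assoc, ← mul_assoc, haa, one_mul]
        rfl
    · fin_cases i
      · refine ⟨k, Or.inl ?_⟩
        show cs.simple 0 * w = _
        rw [hk, ← mul_assoc, haa, one_mul]
      · obtain ⟨k', hk'⟩ := hred (k + 5)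
        refine ⟨k', Or.inl ?_⟩
        show cs.simple 1 * w = _
        rw [← hk', hk, ← mul_assoc]
        have h7 : cs.simple 1 * cs.simple 0 = (cs.simple 0 * cs.simple 1) ^ 5 := by
          have h8 : (cs.simple 0 * cs.simple 1) * (cs.simple 1 * cs.simple 0) = 1 := by
            rw [mul_assoc, ← mul_assoc (cs.simple 1), hbb, one_mul, haa]
          have h9 : (cs.simple 0 * cs.simple 1) * (cs.simple 0 * cs.simple 1) ^ 5 = 1 := by
            rw [← pow_succ', h6]
          exact mul_left_cancel (h8.trans h9.symm)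
        rw [h7, ← pow_add, add_comm]

include cs in
theorem card_le : Nat.card W ≤ 12 ∧ Finite W := by
  let f : Fin 6 ⊕ Fin 6 → W := Sum.elim (fun k => (cs.simple 0 * cs.simple 1) ^ (k : ℕ))
    (fun k => cs.simple 0 * (cs.simple 0 * cs.simple 1) ^ (k : ℕ))
  have hf : Function.Surjective f := by
    intro w
    obtain ⟨k, hk | hk⟩ := cases_w cs w
    · exact ⟨Sum.inl k, hk.symm⟩
    · exact ⟨Sum.inr k, hk.symm⟩
  have hfin : Finite W := Finite.of_surjective f hf
  refine ⟨?_, hfin⟩
  have h1 := Nat.card_le_card_of_surjective f hf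
  rw [Nat.card_sum, Nat.card_fin] at h1
  exact h1

/-- **The isomorphism.** -/
theorem exists_dih : ∃ e : W ≃* DihedralGroup 6, (∀ i, e (cs.simple i) = gen i) ∧ ∀ w, cs.length w = len (e w) := by
  obtain ⟨h1, h2⟩ := card_le cs
  have hs : Function.Surjective (hom cs) := fun d =>
    ⟨cs.wordProd (word d), by rw [hom_wordProd]; exact (word_ok d).2⟩
  have hb : Function.Bijective (hom cs) := by
    rw [Nat.bijective_iff_surjective_and_card]
    refine ⟨hs, le_antisymm ?_ (Nat.card_le_card_of_surjective _ hs)⟩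
    rw [DihedralGroup.nat_card]
    exact h1
  refine ⟨MulEquiv.ofBijective (hom cs) hb, fun i => hom_simple cs i, fun w => ?_⟩
  show cs.length w = len (hom cs w)
  refine le_antisymm ?_ (len_le cs w)
  have h3 : w = cs.wordProd (word (hom cs w)) := hb.1 (by rw [hom_wordProd]; exact (word_ok _).2.symm)
  conv_lhs => rw [h3]
  exact (cs.length_wordProd_le _).trans (word_ok _).1.le

end Cfsg.Agent.H82.AH.Hex
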