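import Cfsg.Agent.H716.RegCent
import Cfsg.Agent.H197.Cls.SSet

/-!
# S2451 (helper82): elements acting as `p`-elements on the panels of a fixed chamber

* `pe_of_triv` : an element fixing a chamber `c` and acting as a `p`-element on each panel of `c` is a `p`-element;
* `pe_of_mul` : the same for a factor of a `p`-element, the other factor being trivial on the panels moved by it;
* `pe_of_one_mem` : if `1 ∈ Dis` and no simple reflection is in `Dis`, then `a` and `b` are `p`-elements.
-/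

set_option autoImplicit false
set_option linter.unusedSectionVars false

open scoped Pointwise

namespace Cfsg.Agent.H82.AH

open Cfsg.Agent.Tits.Core Cfsg.Agent.Tits.Core.Bldg Cfsg.Agent.Tits.Exchange Cfsg.Agent.Tits Cfsg.Agent.FixBN
open Cfsg.Agent.H197.Cls

variable {I : Type*} {M : CoxeterMatrix I} {W : Type*} [Group W] {cs : CoxeterSystem M W} {C : Type*}
  {Δ : Bldg cs C} {G : Type*} [Group G] [MulAction G C] {p : ℕ} (S : Sys Δ G p)

variable [F : OppRes.Cox cs] [Finite W] [Finite I] [Finite G] [hp : Fact p.Prime] (hth : Δ.Thick)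
  (hfaith : ∀ g : G, (∀ x : C, g • x = x) → g = 1)

include S hth hfaith in
theorem pe_of_triv {x : G} {c : C} (hc : x • c = c) (h : ∀ i, ∃ k : ℕ, ∀ y ∈ Δ.Pan i c, (x ^ p ^ k) • y = y) :
    PE p x := by
  have hpos : 0 < orderOf x := orderOf_pos x
  by_cases hall : ∀ {d : ℕ}, d.Prime → d ∣ orderOf x → d = p
  · have h1 := Nat.eq_prime_pow_of_unique_prime_dvd hpos.ne' hall
    exact ⟨_, by rw [← h1]; exact pow_orderOf_eq_one x⟩
  · push Not at hall
    obtain ⟨l, hl, hlx, hlp⟩ := hall
    have : Fact l.Prime := ⟨hl⟩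
    exfalso
    obtain ⟨m, hm⟩ := hlx
    have hm0 : m ≠ 0 := by
      rintro rfl
      rw [mul_zero] at hm
      omega
    have hord : orderOf (x ^ m) = l := by
      rw [orderOf_pow_of_dvd hm0 (by rw [hm]; exact Dvd.intro_left _ rfl), hm]
      exact Nat.mul_div_cancel _ (Nat.pos_of_ne_zero hm0)
    have hP : IsPGroup l (Subgroup.zpowers (x ^ m)) := by
      refine IsPGroup.of_card (n := 1) ?_
      rw [Nat.card_zpowers, hord, pow_one]
    have hPc : ∀ g ∈ Subgroup.zpowers (x ^ m), g • c = c := by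
      have h1 : Subgroup.zpowers (x ^ m) ≤ MulAction.stabilizer G c := by
        rw [Subgroup.zpowers_le]
        exact pow_mem (show x ∈ MulAction.stabilizer G c from hc) m
      exact fun g hg => h1 hg
    obtain ⟨d, hcd, hPd⟩ := H716.RegUni.exists_opp_fixed S hlp (Subgroup.zpowers (x ^ m)) hP hPc
    have hy1 : x ^ m = 1 := by
      apply hfaith
      intro z
      refine Rigid.rigid (Δ := Δ) (Δ' := Δ) hth (J := Set.univ) (c := c) (d := d) (φ := fun y => (x ^ m) • y)
        (ψ := fun y => y) (fun a _ b _ => S.iso (x ^ m) a b) (fun a _ b _ => rfl) ?_ hcd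
        (hPd _ (Subgroup.mem_zpowers _)) z
        (by change Δ.δ c z ∈ WJ cs Set.univ; rw [OppRes.WJ_univ]; trivial)
      intro j _ y hy
      obtain ⟨k, hk⟩ := h j
      -- `x ^ m` is a power of `(x ^ m) ^ p ^ k`
      have hcop : (orderOf (x ^ m)).Coprime (p ^ k) := by
        rw [hord]
        exact Nat.Coprime.pow_right k ((Nat.coprime_primes hl hp.out).2 hlp)
      obtain ⟨s, hs⟩ := exists_pow_eq_self_of_coprime hcop.symm
      have h2 : (x ^ p ^ k) ∈ MulAction.stabilizer G y := hk y hy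
      have h3 : x ^ m ∈ MulAction.stabilizer G y := by
        have e : (x ^ m) ^ p ^ k = (x ^ p ^ k) ^ m := by rw [← pow_mul, mul_comm m, pow_mul]
        rw [← hs, e]
        exact pow_mem (pow_mem h2 m) s
      exact h3
    rw [hy1, orderOf_one] at hord
    exact hl.one_lt.ne hord

include S hth hfaith in
/-- if `z = a * b` is a `p`-element, `a` fixes `c` and one of `a`, `b` is trivial on each panel of `c`, then `a` is a
`p`-element -/
theorem pe_of_mul {a b : G} {c : C} (ha : a • c = c) (hz : PE p (a * b))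
    (h : ∀ i, (∀ y ∈ Δ.Pan i c, a • y = y) ∨ ∀ y ∈ Δ.Pan i c, b • y = y) : PE p a := by
  obtain ⟨n, hn⟩ := hz
  refine pe_of_triv S hth hfaith ha fun i => ?_
  rcases h i with h1 | h1
  · exact ⟨0, fun y hy => by rw [pow_zero, pow_one]; exact h1 y hy⟩
  · refine ⟨n, fun y hy => ?_⟩
    have hmem : ∀ k : ℕ, (a ^ k) • y ∈ Δ.Pan i c := by
      intro k
      induction k with
      | zero => rw [pow_zero, one_smul]; exact hy
      | succ k ih =>
        rw [pow_succ', mul_smul]
        have := smul_mem_Pan S (g := a) ih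
        rwa [ha] at this
    have key : ∀ k : ℕ, ((a * b) ^ k) • y = (a ^ k) • y := by
      intro k
      induction k with
      | zero => rw [pow_zero, pow_zero]
      | succ k ih => rw [pow_succ', mul_smul, ih, mul_smul, h1 _ (hmem k), pow_succ' a, mul_smul]
    rw [← key, hn, one_smul]

include S in
/-- no panel is moved by both -/
theorem triv_or {a b : G} (hi : ∀ i, cs.simple i ∉ Dis Δ a b) {c : C} (ha : a • c = c) (hb : b • c = c) (i : I) :
    (∀ y ∈ Δ.Pan i c, a • y = y) ∨ ∀ y ∈ Δ.Pan i c, b • y = y := by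
  by_contra hcon
  rw [not_or] at hcon
  obtain ⟨h2, h3⟩ := hcon
  push Not at h2 h3
  obtain ⟨y, hy, hy'⟩ := h2
  obtain ⟨y2, hy2, hy2'⟩ := h3
  have m1 : Mv Δ i a := by
    refine ⟨c, y, ha, Δ.δ_eq_of_mem_Pan (Δ.self_mem_Pan i c) hy ?_, hy'⟩
    rintro rfl
    exact hy' ha
  have m2 : Mv Δ i b := by
    refine ⟨c, y2, hb, Δ.δ_eq_of_mem_Pan (Δ.self_mem_Pan i c) hy2 ?_, hy2'⟩
    rintro rfl
    exact hy2' hb
  exact hi i ⟨delta_of_mv S (Mv.inv S m1), delta_of_mv S m2⟩

include S hth hfaith in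
theorem pe_left_of_one_mem {a b : G} (hab : Good p a b) (h1 : (1 : W) ∈ Dis Δ a b)
    (hi : ∀ i, cs.simple i ∉ Dis Δ a b) : PE p a := by
  obtain ⟨g, c, hc, hbc⟩ := exists_pair S hth h1
  have hac : a⁻¹ • c = c := (Δ.eq_of_δ_eq_one hc).symm
  have hac' : a • c = c := (inv_smul_eq_iff.1 hac).symm
  rw [hac] at hbc
  exact pe_of_mul S hth hfaith hac' (hab g) fun i => triv_or S (by rw [dis_conj S g]; exact hi) hac' hbc i

include S hth hfaith in
/-- **`1 ∈ Dis`, no reflection in `Dis`**: both elements are `p`-elements. -/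
theorem pe_of_one_mem {a b : G} (hab : Good p a b) (h1 : (1 : W) ∈ Dis Δ a b)
    (hi : ∀ i, cs.simple i ∉ Dis Δ a b) : PE p a ∧ PE p b := by
  refine ⟨pe_left_of_one_mem S hth hfaith hab h1 hi, ?_⟩
  have h2 : PE p b⁻¹ := pe_left_of_one_mem S hth hfaith hab.inv
    ⟨by rw [inv_inv]; exact h1.2, h1.1⟩ (fun i h => hi i ⟨h.2, by have := h.1; rwa [inv_inv] at this⟩)
  obtain ⟨k, hk⟩ := h2
  exact ⟨k, by rwa [inv_pow, inv_eq_one] at hk⟩

end Cfsg.Agent.H82.AH
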