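import Cfsg.Agent.H82.AH.DisJ
import Cfsg.Agent.Nodes.RGDFold
import Cfsg.Agent.ChevalleyStructure.BruhatSplit
import Cfsg.Agent.OddHalf.Small.ChevCent

/-!
# S2451 (helper82): comparison of the root characters of the torus

* `nI_conj` : conjugation of the root elements by the monomial words;
* `chi_eq` : a torus element commuting with a monomial word has the same characters on `s` and `w s`;
* `cartan_dvd` : untwisted groups: `q - 1 ∣ ⟨w s, α_j^∨⟩ - ⟨s, α_j^∨⟩` for each common displacement `w`.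
-/

set_option autoImplicit false
set_option linter.unusedSectionVars false

open scoped Pointwise

namespace Cfsg.Agent.H82.AH

open CoxeterSystem Cfsg.Agent.ChevalleyStructure.CoxeterGeom Cfsg.Agent.Tits.Roots Cfsg.Agent.Tits.Core
  Cfsg.Agent.Tits.RootComb Cfsg.Agent.Nodes.Comb Cfsg.Agent.Nodes.Reps Cfsg.Agent.Nodes.BNOf Cfsg.Agent.Nodes.BNOf.RGD
  Cfsg.Agent.FixBN Cfsg.Agent.Tits.OfBN Cfsg.Agent.Tits.OppRes Cfsg.Agent.LieExceptional.BNPairCore
  Cfsg.Agent.OddHalf.Table.AutBldg Cfsg.Agent.OddHalf.Table.AutRGD Cfsg.Agent.OddHalf.Table.AutNorm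
  Cfsg.Agent.Tits Cfsg.Agent.Nodes.RGDLib Cfsg.Agent.UGT.U2.FOne
open Cfsg.Agent.Tits.Core.Bldg Cfsg.Agent.H197.Cls
open Cfsg.Lie Cfsg.Agent.ChevalleyStructure Cfsg.Agent.ChevalleyStructure.Elts
  Cfsg.Agent.ChevalleyStructure.RootVec Cfsg.Agent.ChevalleyStructure.RootVecTab
  Cfsg.Agent.ChevalleyStructure.NPerm Cfsg.Agent.ChevalleyStructure.CoxeterGeomTypes
  Cfsg.Agent.Nodes.RGDChev Cfsg.Agent.Nodes.RGDFold

universe u

section Big

variable {D : ChevalleyDatum} {l : ℕ} {M : CoxeterMatrix (Fin l)} (hp : IsType D l M) {K : Type u} [Field K]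

/-- conjugation by a monomial word -/
theorem nI_conj (o : List (Fin l)) {s : ℕ} (hs : s < D.nroots) :
    ∃ η : K, η ≠ 0 ∧ ∀ c : K, nI hp K o * xG hp.inList s c * (nI hp K o)⁻¹ = xG hp.inList (wp D o s) (η * c) := by
  induction o with
  | nil =>
    refine ⟨1, one_ne_zero, fun c => ?_⟩
    have h1 : nI hp K ([] : List (Fin l)) = 1 := rfl
    rw [h1, one_mul, inv_one, mul_one, one_mul]
    rfl
  | cons j o ih =>
    obtain ⟨η, hη, ih⟩ := ih
    obtain ⟨ε, hε, h⟩ := Cfsg.Agent.S1031.result (F := K) D hp.inList j (wp D o s) (lt_rank hp j) (wp_lt hp o hs)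
    have hε0 : (ε : K) ≠ 0 := by rcases hε with rfl | rfl <;> simp
    refine ⟨(ε : K) * η, mul_ne_zero hε0 hη, fun c => ?_⟩
    have key : ∀ t : K, nn hp K j * xG hp.inList (wp D o s) t * (nn hp K j)⁻¹ =
        xG hp.inList (D.reflectRoot j (wp D o s)) ((ε : K) * t) := by
      intro t
      rw [mul_inv_eq_iff_eq_mul]
      apply Units.ext
      unfold nn
      rw [Units.val_mul, Units.val_mul, coe_nG, coe_xG, coe_xG]
      exact h t
    rw [nI_cons]
    have e1 : nn hp K j * nI hp K o * xG hp.inList s c * (nn hp K j * nI hp K o)⁻¹ =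
        nn hp K j * (nI hp K o * xG hp.inList s c * (nI hp K o)⁻¹) * (nn hp K j)⁻¹ := by group
    rw [e1, ih, key, mul_assoc]
    rfl

/-- equal characters -/
theorem chi_eq (o : List (Fin l)) {t : GL D.Idx K} {χ : ℕ → K}
    (hχ : ∀ s < D.nroots, ∀ c : K, t * xG hp.inList s c * t⁻¹ = xG hp.inList s (χ s * c))
    (ht : (nI hp K o)⁻¹ * t * nI hp K o = t) {s : ℕ} (hs : s < D.nroots) : χ (wp D o s) = χ s := by
  obtain ⟨η, hη, h⟩ := nI_conj (K := K) hp o hs
  have ht' : nI hp K o * t * (nI hp K o)⁻¹ = t := by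
    conv_rhs => rw [← ht]
    conv_lhs => rw [← ht]
    rw [ht]
    conv_lhs => rw [← ht]
    group
  have h1 : nI hp K o * (t * xG hp.inList s 1 * t⁻¹) * (nI hp K o)⁻¹ =
      t * (nI hp K o * xG hp.inList s 1 * (nI hp K o)⁻¹) * t⁻¹ := by
    have h2 : nI hp K o * (t * xG hp.inList s 1 * t⁻¹) * (nI hp K o)⁻¹ =
        (nI hp K o * t * (nI hp K o)⁻¹) * (nI hp K o * xG hp.inList s 1 * (nI hp K o)⁻¹) *
          (nI hp K o * t * (nI hp K o)⁻¹)⁻¹ := by group
    rw [h2, ht']
  rw [hχ s hs, h, h, hχ _ (wp_lt hp o hs)] at h1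
  have h3 := xG_injective hp.inList (wp_lt hp o hs) h1
  rw [mul_one, mul_one, mul_comm η] at h3
  exact (mul_right_cancel₀ hη h3).symm

theorem vec_wp {W : Type*} [Group W] (cs : CoxeterSystem M W) (o : List (Fin l)) {s : ℕ} (hs : s < D.nroots) :
    vec D l (wp D o s) = rep cs hp.isCartan (cs.wordProd o) (vec D l s) := by
  induction o with
  | nil => rw [wordProd_nil, map_one, Module.End.one_apply]; rfl
  | cons j o ih =>
    rw [wordProd_cons, rep_mul_apply, ← ih, rep_vec hp cs j (wp_lt hp o hs)]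
    rfl

/-- the characters of `h_j(c)` -/
theorem hG_chi (j : Fin l) {c : K} (hc : c ≠ 0) :
    ∀ s < D.nroots, ∀ t : K, hG hp.inList (D.simple j) c * xG hp.inList s t * (hG hp.inList (D.simple j) c)⁻¹ =
      xG hp.inList s (c ^ D.cartan j s * t) := fun _ hs t =>
  BruhatSplit.hG_simple_conj hp.inList (lt_rank hp j) hs hc t

end Big

/-- a generator of the multiplicative group -/
theorem dvd_of_zpow {K : Type*} [Field K] [Fintype K] {a b : ℤ} (h : ∀ c : K, c ≠ 0 → c ^ a = c ^ b) :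
    ((Fintype.card K : ℤ) - 1) ∣ a - b := by
  classical
  obtain ⟨g, hg⟩ := IsCyclic.exists_generator (α := Kˣ)
  have h1 : orderOf g = Fintype.card K - 1 := by
    rw [orderOf_eq_card_of_forall_mem_zpowers hg, Nat.card_eq_fintype_card, Fintype.card_units]
  have h2 := h g g.ne_zero
  have h3 : g ^ (a - b) = 1 := by
    rw [zpow_sub, mul_inv_eq_one]
    apply Units.ext
    rw [Units.val_zpow_eq_zpow_val, Units.val_zpow_eq_zpow_val, h2]
  have h4 := orderOf_dvd_iff_zpow_eq_one.2 h3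
  rw [h1] at h4
  have h5 : 1 ≤ Fintype.card K := Fintype.card_pos
  rwa [Nat.cast_sub h5, Nat.cast_one] at h4

section Word

variable {I W Y : Type*} [Fintype I] [DecidableEq I] [Group W] [Group Y] {M : CoxeterMatrix I}
  {cs : CoxeterSystem M W} {T : Subgroup Y} {n : I → Y}

theorem rp_word (hN : NSys M T n) (ω : List I) : Rp cs hN (cs.wordProd ω) (ω.map n).prod := by
  induction ω with
  | nil => rw [wordProd_nil, List.map_nil, List.prod_nil]; exact rp_one
  | cons i ω ih =>
    rw [wordProd_cons, List.map_cons, List.prod_cons]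
    exact (rp_simple cs hN i).mul ih

end Word

section Untw

variable {D : ChevalleyDatum} {l : ℕ} {M : CoxeterMatrix (Fin l)} (hp : IsType D l M) {K : Type u} [Field K]
  [Fintype K] {W : Type*} [Group W] [Finite W] {cs : CoxeterSystem M W} {p : ℕ} [Fact p.Prime] [CharP K p]
  (hgen : B cs hp.isCartan ((D.diagonalSubgroup K).subgroupOf (D.group K))
      (fun x => (XV D l K x).subgroupOf (D.group K)) ⊔ NN cs (rgd (K := K) hp cs p).nsys = ⊤)
  [hN : ((((rgd (K := K) hp cs p).bnPair hgen).B ⊓ ((rgd (K := K) hp cs p).bnPair hgen).N).subgroupOf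
    ((rgd (K := K) hp cs p).bnPair hgen).N).Normal]
  (cs' : CoxeterSystem M (WP ((rgd (K := K) hp cs p).bnPair hgen)))
  (hcs : ∀ i, cs'.simple i = QuotientGroup.mk
    (⟨(eS (rgd (K := K) hp cs p) hgen i : ↥(D.group K)), ((rgd (K := K) hp cs p).bnPair hgen).subset
      (eS (rgd (K := K) hp cs p) hgen i).2⟩ : ((rgd (K := K) hp cs p).bnPair hgen).N))
  (hcore : (B cs hp.isCartan ((D.diagonalSubgroup K).subgroupOf (D.group K))
      (fun x => (XV D l K x).subgroupOf (D.group K))).normalCore = ⊥)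

include hcore in
/-- **untwisted groups** -/
theorem cartan_dvd {a b : ↥(D.group K)} (hab : Good p a b) {w : W}
    (hw : fw cs cs' w ∈ Dis (Bl (rgd (K := K) hp cs p) hgen cs' hcs) a b) {s s' : ℕ} (hs : s < D.nroots)
    (hs' : s' < D.nroots) (hss : vec D l s' = rep cs hp.isCartan w (vec D l s)) (j : Fin l) :
    ((Fintype.card K : ℤ) - 1) ∣ D.cartan j s' - D.cartan j s := by
  have hW : Finite (WP ((rgd (K := K) hp cs p).bnPair hgen)) := Finite.of_equiv W (fw cs cs').toEquiv
  have F' : Cox cs' := inferInstance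
  obtain ⟨ω, rfl⟩ := cs.wordProd_surjective w
  rw [← vec_wp hp cs ω hs] at hss
  have e1 : s' = wp D ω s := vec_inj hp hs' (wp_lt hp ω hs) hss
  subst e1
  refine dvd_of_zpow fun c hc => ?_
  have hT : ∀ s ∈ (D.diagonalSubgroup K).subgroupOf (D.group K), ∀ t ∈ (D.diagonalSubgroup K).subgroupOf (D.group K),
      s * t = t * s := fun s hs t ht =>
    Subtype.ext (OddHalf.Small.ChevCent.diag_comm hp.inList (Subgroup.mem_subgroupOf.1 hs)
      (Subgroup.mem_subgroupOf.1 ht))
  have hcm : hG hp.inList (D.simple j) c ∈ D.group K := hG_mem_group _ _ _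
  have hcd : hG hp.inList (D.simple j) c ∈ D.diagonalSubgroup K :=
    hG_mem_diagonal hp.inList (simple_lt hp.inList (lt_rank hp j)) hc
  have h1 := comm_of_mem_dis (rgd (K := K) hp cs p) hgen cs' hcs hcore hT hab
    (rp_word (rgd (K := K) hp cs p).nsys ω) hw (t := ⟨_, hcm⟩) (Subgroup.mem_subgroupOf.2 hcd)
  have h2 : ((((ω.map fun i => (⟨nn hp K i, nn_mem_group hp i⟩ : ↥(D.group K))).prod : ↥(D.group K))) :
      GL D.Idx K) = nI hp K ω := by
    unfold nI
    rw [SubmonoidClass.coe_list_prod, List.map_map]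
    rfl
  have h3 := congrArg (Subtype.val) h1
  have h4 : (nI hp K ω)⁻¹ * hG hp.inList (D.simple j) c * nI hp K ω = hG hp.inList (D.simple j) c := by
    rw [← h2]
    exact h3
  exact chi_eq hp ω (hG_chi hp j hc) h4 hs

end Untw

end Cfsg.Agent.H82.AH
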