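import Cfsg.Agent.H82.AH.Three
import Cfsg.Agent.H82.AH.Hex
import Cfsg.Agent.H150.AH.WtFree

/-!
# S2451 (helper82): `³D₄(2)`, the long reflection

`false_of_long` : type `G₂`, `p = 2`, the panels of type `0` have three chambers, `Dis ⊆ {1} ∪ s₀^W`, `s₀ ∈ Dis`, all the
products conjugate: contradiction.
-/

set_option autoImplicit false
set_option linter.unusedSectionVars false

open scoped Pointwise

namespace Cfsg.Agent.H82.AH

open Cfsg.Agent.Tits.Core Cfsg.Agent.Tits.Core.Bldg Cfsg.Agent.Tits.Exchange Cfsg.Agent.Tits Cfsg.Agent.FixBN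
open Cfsg.Agent.H197.Cls Cfsg.Agent.H150.AH Cfsg.Agent.H330.ClassProd

variable {W : Type*} [Group W] {cs : CoxeterSystem CoxeterMatrix.G₂ W} {C : Type*}

local prefix:100 "ℓ" => cs.length

/-- the class of the long reflection -/
theorem class_long {e : W ≃* DihedralGroup 6} (he : ∀ i, e (cs.simple i) = Hex.gen i) {u w : W}
    (h : u * w * u⁻¹ = cs.simple 0) : w = cs.simple 0 ∨ w = cs.simple 1 * cs.simple 0 * cs.simple 1 ∨
      w = cs.simple 0 * (cs.simple 1 * cs.simple 0 * cs.simple 1) * cs.simple 0 := by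
  have h1 := congrArg e h
  rw [map_mul, map_mul, map_inv, he] at h1
  have key : ∀ d f : DihedralGroup 6, f * d * f⁻¹ = Hex.gen 0 → d = Hex.gen 0 ∨
      d = Hex.gen 1 * Hex.gen 0 * Hex.gen 1 ∨ d = Hex.gen 0 * (Hex.gen 1 * Hex.gen 0 * Hex.gen 1) * Hex.gen 0 := by
    decide
  rcases key _ _ h1 with h2 | h2 | h2
  · left; apply e.injective; rw [h2, he]
  · right; left; apply e.injective; rw [h2]; simp only [map_mul, he]
  · right; right; apply e.injective; rw [h2]; simp only [map_mul, he]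

variable {Δ : Bldg cs C} {G : Type*} [Group G] [MulAction G C] (S : Sys Δ G 2) [F : OppRes.Cox cs] [Finite W]
  [Finite G] [Finite C] [Nonempty C] (hth : Δ.Thick)

include S hth in
theorem false_of_one_notMem {a b c : G} (hc : AllConj a b c) (hpe : PE 2 c) (hq : Δ.Param 0 2)
    (hD : ∀ w ∈ Dis Δ a b, w = 1 ∨ ∃ u, u * w * u⁻¹ = cs.simple 0) (h0 : cs.simple 0 ∈ Dis Δ a b)
    (h1 : (1 : W) ∉ Dis Δ a b) : False := by
  classical
  have := Fintype.ofFinite W
  obtain ⟨e, he, hl⟩ := Hex.exists_dih cs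
  have hab : Good 2 a b := good_of_allConj hc hpe
  set v1 := cs.simple 1 * cs.simple 0 * cs.simple 1 with hv1
  set v2 := cs.simple 0 * v1 * cs.simple 0 with hv2
  have hD' : ∀ w ∈ Dis Δ a b, w = cs.simple 0 ∨ w = v1 ∨ w = v2 := by
    intro w hw
    rcases hD w hw with rfl | ⟨u, hu⟩
    · exact absurd hw h1
    · exact class_long he hu
  -- facts on the Weyl group
  have e1 : e v1 = Hex.gen 1 * Hex.gen 0 * Hex.gen 1 := by rw [hv1]; simp only [map_mul, he]
  have e2 : e v2 = Hex.gen 0 * (Hex.gen 1 * Hex.gen 0 * Hex.gen 1) * Hex.gen 0 := by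
    rw [hv2, hv1]; simp only [map_mul, he]
  clear_value v2 v1
  have w1 : ℓ v1 < ℓ (cs.simple 0 * v1) := by
    rw [hl, hl, map_mul, he, e1]; decide
  have w2 : ℓ v1 < ℓ (v1 * cs.simple 0) := by
    rw [hl, hl, map_mul, he, e1]; decide
  have w3 : cs.simple 0 * v1 ≠ v1 * cs.simple 0 := by
    intro h
    have h2 := congrArg e h
    rw [map_mul, map_mul, he, e1] at h2
    revert h2; decide
  have w4 : ¬ ℓ v2 < ℓ (cs.simple 0 * v2) := by
    rw [hl, hl, map_mul, he, e2]; decide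
  have w5 : cs.simple 0 * v2 ≠ v2 * cs.simple 0 := by
    intro h
    have h2 := congrArg e h
    rw [map_mul, map_mul, he, e2] at h2
    revert h2; decide
  have w12 : v1 ≠ v2 := by
    intro h
    have h2 := congrArg e h
    rw [e1, e2] at h2
    revert h2; decide
  have w01 : cs.simple 0 ≠ v1 := by
    intro h
    have h2 := congrArg e h
    rw [he, e1] at h2
    revert h2; decide
  have w02 : cs.simple 0 ≠ v2 := by
    intro h
    have h2 := congrArg e h
    rw [he, e2] at h2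
    revert h2; decide
  let z : G → G := fun g => a * (g * b * g⁻¹)
  have hz : ∀ (g : G) (x : C), z g • x = x ↔ (g * b * g⁻¹) • x = a⁻¹ • x := by
    intro g x
    change (a * (g * b * g⁻¹)) • x = x ↔ _
    rw [mul_smul, eq_inv_smul_iff]
  have hmem : ∀ (g : G) (x : C), z g • x = x → Δ.δ x (a⁻¹ • x) ∈ Dis Δ a b := by
    intro g x hx
    rw [hz] at hx
    rw [← dis_conj S g, ← hx]
    exact mem_dis S hx
  -- the pointwise fixed panels
  let P : G × C → Prop := fun x => ∀ y ∈ Δ.Pan 0 x.2, z x.1 • y = y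
  let Nr : G × C → Prop := fun x => P x ∧ Δ.δ x.2 (a⁻¹ • x.2) = v1
  let Fr : G × C → Prop := fun x => Δ.δ x.2 (a⁻¹ • x.2) = v2 ∧ z x.1 • x.2 = x.2
  -- a chamber of a pointwise fixed panel
  have hP0 : ∀ x, P x → Δ.δ x.2 (a⁻¹ • x.2) = v1 ∨ Δ.δ x.2 (a⁻¹ • x.2) = v2 := by
    rintro ⟨g, x⟩ hx
    rcases hD' _ (hmem g x (hx x (Δ.self_mem_Pan 0 x))) with h | h
    · exfalso
      refine no_fix S (hab.conjR g) hq (by rw [dis_conj S g]; exact h1) h fun y hy => ?_
      exact (hz g y).1 (hx y hy)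
    · exact h
  -- the gate
  have hgate : ∀ (g : G) (x : C), z g • x = x → (Δ.δ x (a⁻¹ • x) = v1 ∨ Δ.δ x (a⁻¹ • x) = v2) →
      ∃ x0 ∈ Δ.Pan 0 x, z g • x0 = x0 ∧ Δ.δ x0 (a⁻¹ • x0) = v1 ∧ (Δ.δ x (a⁻¹ • x) = v2 → x ≠ x0) := by
    intro g x hx hd
    have hx' := (hz g x).1 hx
    have hne : cs.simple 0 * Δ.δ x ((g * b * g⁻¹) • x) ≠ Δ.δ x ((g * b * g⁻¹) • x) * cs.simple 0 := by
      rw [hx']
      rcases hd with h | h <;> rw [h]
      · exact w3
      · exact w5
    obtain ⟨x0, hx0, y0, hy0, h, ha, hb, -⟩ := lemY_pair S hth (hab.conjR g) hx' hne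
    have hz0 : z g • x0 = x0 := by
      rw [hz, hb, eq_inv_smul_iff, ha]
    have ha' : a⁻¹ • x0 = y0 := by rw [inv_smul_eq_iff, ha]
    have hx0v : Δ.δ x0 (a⁻¹ • x0) = v1 := by
      rcases hD' _ (hmem g x0 hz0) with h2 | h2 | h2
      · exfalso
        apply h.ne
        rw [← ha', h2]
      · exact h2
      · exfalso
        have h3 := h.left
        rw [← ha', h2] at h3
        exact w4 h3
    refine ⟨x0, hx0, hz0, hx0v, fun h2 h3 => ?_⟩
    rw [← h3, h2] at hx0v
    exact w12 hx0v.symm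
  -- far chambers lie in pointwise fixed panels
  have hFP : ∀ x, Fr x → P x := by
    rintro ⟨g, x⟩ ⟨h2, h3⟩ y hy
    obtain ⟨x0, hx0, h4, -, h5⟩ := hgate g x h3 (Or.inr h2)
    exact fix_pan S (mem_U S (hab g) h3) hx0 (h5 h2).symm h4 hy
  -- the neighbours of a near chamber
  have hnear : ∀ x : C, Δ.δ x (a⁻¹ • x) = v1 → ∀ y ∈ Δ.Pan 0 x, y ≠ x → Δ.δ y (a⁻¹ • y) = v2 := by
    intro x hx y hy hne
    have hNP : NP Δ 0 x (a⁻¹ • x) := ⟨by rw [hx]; exact w1, by rw [hx]; exact w2, by rw [hx]; exact w3⟩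
    rw [hNP.dLR hy hne (smul_mem_Pan S hy) (fun h => hne (smul_left_cancel _ h)), hx, ← hv2]
  -- `|P| = 3 |Nr|`
  have c1 : Nat.card {x // P x} = Nat.card {x // Nr x} * (2 + 1) := by
    rw [← card_adj hq Nr]
    symm
    refine Nat.card_eq_of_bijective (fun x : {x : (G × C) × C // Nr x.1 ∧ x.2 ∈ Δ.Pan 0 x.1.2} =>
      (⟨(x.1.1.1, x.1.2), ?_⟩ : {x // P x})) ⟨?_, ?_⟩
    · intro y hy
      refine x.2.1.1 y ?_
      rw [← Δ.Pan_eq_of_mem x.2.2]
      exact hy
    · rintro ⟨⟨⟨g, x⟩, y⟩, hx, hy⟩ ⟨⟨⟨g', x'⟩, y'⟩, hx', hy'⟩ h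
      have h2 := congrArg (fun t => t.1.1) h
      have h3 := congrArg (fun t => t.1.2) h
      simp only at h2 h3
      subst h2 h3
      have h4 : x' = x := by
        by_contra hne
        have h5 := hnear x hx.2 x' (Δ.mem_Pan_trans hy (Δ.mem_Pan_symm hy')) hne
        have h6 : Δ.δ x' (a⁻¹ • x') = v1 := hx'.2
        rw [h6] at h5
        exact w12 h5
      subst h4
      rfl
    · rintro ⟨⟨g, y⟩, hy⟩
      obtain ⟨x0, hx0, h4, h5, -⟩ := hgate g y (hy y (Δ.self_mem_Pan 0 y)) (hP0 _ hy)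
      refine ⟨⟨((g, x0), y), ⟨?_, h5⟩, Δ.mem_Pan_symm hx0⟩, rfl⟩
      intro t ht
      refine hy t ?_
      rw [← Δ.Pan_eq_of_mem hx0]
      exact ht
  -- `|P| = |Nr| + |Fr|`
  have c2 : Nat.card {x // P x} = Nat.card {x // Nr x} + Nat.card {x // Fr x} := by
    have h2 : Nat.card {x // P x} = Nat.card {x : {x // P x} // Δ.δ x.1.2 (a⁻¹ • x.1.2) = v1} +
        Nat.card {x : {x // P x} // ¬ Δ.δ x.1.2 (a⁻¹ • x.1.2) = v1} := by
      rw [← Nat.card_sum]
      exact Nat.card_congr (Equiv.sumCompl _).symm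
    rw [h2]
    congr 1
    · refine Nat.card_congr ⟨fun x => ⟨x.1.1, x.1.2, x.2⟩, fun x => ⟨⟨x.1, x.2.1⟩, x.2.2⟩, fun x => rfl, fun x => rfl⟩
    · refine Nat.card_congr ⟨fun x => ⟨x.1.1, (hP0 _ x.1.2).resolve_left x.2, x.1.2 _ (Δ.self_mem_Pan 0 _)⟩,
        fun x => ⟨⟨x.1, hFP _ x.2⟩, fun h => w12 (h.symm.trans x.2.1)⟩, fun x => rfl, fun x => rfl⟩
  -- class function
  have c3 : Nat.card {x // P x} = Nat.card G * Nat.card {x : C // ∀ y ∈ Δ.Pan 0 x, c • y = y} := by
    refine card_pairs_const hc (fun z x => ∀ y ∈ Δ.Pan 0 x, z • y = y) ?_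
    intro g z x h y hy
    have h2 : g⁻¹ • y ∈ Δ.Pan 0 x := by
      have := smul_mem_Pan S (g := g⁻¹) hy
      rwa [inv_smul_smul] at this
    rw [mul_smul, mul_smul, h _ h2, smul_inv_smul]
  -- the weights
  have c4 : ((Nat.card {x // Fr x} : ℕ) : ℚ) = Nat.card G * wt Δ a b v2 := by
    have h2 := card_fixed_on S hth a b (fun w => w = v2)
    rw [Finset.sum_filter, Finset.sum_ite_eq', if_pos (Finset.mem_univ _)] at h2
    exact h2
  have s1 : wt Δ a b v1 = wt Δ a b (cs.simple 0) := by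
    have h2 := wt_conj S hth hab h0 (cs.simple 1)
    rwa [cs.inv_simple, ← hv1] at h2
  have s2 : wt Δ a b v2 = wt Δ a b (cs.simple 0) := by
    have h2 := wt_conj S hth hab h0 (cs.simple 0 * cs.simple 1)
    have h3 : cs.simple 0 * cs.simple 1 * cs.simple 0 * (cs.simple 0 * cs.simple 1)⁻¹ = v2 := by
      rw [mul_inv_rev, cs.inv_simple, cs.inv_simple, hv2, hv1]
      group
    rwa [h3] at h2
  have s3 : ∑ w, wt Δ a b w = 3 * wt Δ a b v2 := by
    have h2 : ∑ w, wt Δ a b w = ∑ w ∈ ({cs.simple 0, v1, v2} : Finset W), wt Δ a b w := by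
      symm
      refine Finset.sum_subset (Finset.subset_univ _) fun w _ hw => ?_
      rw [wt_eq_zero_iff]
      intro h3
      apply hw
      rcases hD' w h3 with rfl | rfl | rfl <;> simp
    rw [h2, Finset.sum_insert (by simp [w01, w02]), Finset.sum_insert (by simp [w12]), Finset.sum_singleton, s1, ← s2]
    ring
  have s4 := sum_wt S hth hc
  rw [s3] at s4
  have hG : (0 : ℚ) < Nat.card G := by exact_mod_cast Nat.card_pos
  have s5 : ((fx C c : ℕ) : ℚ) = 2 * (Nat.card {x : C // ∀ y ∈ Δ.Pan 0 x, c • y = y} : ℕ) := by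
    have t1 : (3 : ℚ) * (Nat.card {x // Fr x} : ℕ) = 2 * (Nat.card {x // P x} : ℕ) := by
      have : 3 * Nat.card {x // Fr x} = 2 * Nat.card {x // P x} := by omega
      exact_mod_cast this
    rw [c4, c3] at t1
    rw [s4]
    have t2 : (Nat.card G : ℚ) * (3 * wt Δ a b v2) =
        Nat.card G * (2 * (Nat.card {x : C // ∀ y ∈ Δ.Pan 0 x, c • y = y} : ℕ)) := by
      push_cast at t1
      linarith
    exact mul_left_cancel₀ hG.ne' t2
  have s6 : fx C c = 2 * Nat.card {x : C // ∀ y ∈ Δ.Pan 0 x, c • y = y} := by exact_mod_cast s5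
  have s7 := fx_mod S hth hpe
  rw [s6] at s7
  push_cast at s7
  have s8 : (2 : ZMod 2) = 0 := rfl
  rw [s8, zero_mul] at s7
  exact absurd s7 (by decide)

include S hth in
/-- **the long reflection** -/
theorem false_of_long (hfaith : ∀ g : G, (∀ x : C, g • x = x) → g = 1) {a b c : G} (hc : AllConj a b c) (hpe : PE 2 c)
    (hq : Δ.Param 0 2) (hD : ∀ w ∈ Dis Δ a b, w = 1 ∨ ∃ u, u * w * u⁻¹ = cs.simple 0)
    (h0 : cs.simple 0 ∈ Dis Δ a b) : False := by
  by_cases h1 : (1 : W) ∈ Dis Δ a b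
  · obtain ⟨e, he, hl⟩ := Hex.exists_dih cs
    refine false_of_one S hth hfaith (good_of_allConj hc hpe) hq h1 h0 fun j hj hj2 => ?_
    have hj1 : j = 1 := by
      fin_cases j
      · exact absurd rfl hj
      · rfl
    subst hj1
    rcases hD _ hj2 with h2 | ⟨u, hu⟩
    · have h3 := congrArg e h2
      rw [he, map_one] at h3
      revert h3; decide
    · rcases class_long he hu with h2 | h2 | h2
      · have h3 := congrArg e h2
        rw [he, he] at h3
        revert h3; decide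
      · have h3 := congrArg e h2
        simp only [map_mul, he] at h3
        revert h3; decide
      · have h3 := congrArg e h2
        simp only [map_mul, he] at h3
        revert h3; decide
  · exact false_of_one_notMem S hth hc hpe hq hD h0 h1

end Cfsg.Agent.H82.AH
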