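import Cfsg.Agent.H82.AH.DisTw
import Cfsg.Agent.Nodes.RGDTwD4
import Cfsg.Agent.ChevalleyStructure.D4H1

/-!
# S2451 (helper82): the common displacements for `³D₄(q)`

`dis_D4` : `q ≥ 3`: `Dis ⊆ {1}`; `q = 2`: `1` or a conjugate of the long simple reflection `s₀`.
-/

set_option autoImplicit false
set_option linter.unusedSectionVars false

open scoped Pointwise

namespace Cfsg.Agent.H82.AH

open CoxeterSystem Cfsg.Agent.ChevalleyStructure.CoxeterGeom Cfsg.Agent.Tits.Roots Cfsg.Agent.Tits.Core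
  Cfsg.Agent.Tits.RootComb Cfsg.Agent.Nodes.Comb Cfsg.Agent.Nodes.Reps Cfsg.Agent.Nodes.BNOf Cfsg.Agent.Nodes.BNOf.RGD
  Cfsg.Agent.FixBN Cfsg.Agent.Tits.OfBN Cfsg.Agent.Tits.OppRes Cfsg.Agent.LieExceptional.BNPairCore
  Cfsg.Agent.OddHalf.Table.AutBldg Cfsg.Agent.OddHalf.Table.AutRGD Cfsg.Agent.OddHalf.Table.AutNorm
  Cfsg.Agent.Tits Cfsg.Agent.Nodes.RGDLib Cfsg.Agent.UGT.U2.FOne
open Cfsg.Agent.Tits.Core.Bldg Cfsg.Agent.H197.Cls
open Cfsg.Lie Cfsg.Agent.ChevalleyStructure Cfsg.Agent.ChevalleyStructure.Elts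
  Cfsg.Agent.ChevalleyStructure.RootVec Cfsg.Agent.ChevalleyStructure.RootVecTab
  Cfsg.Agent.ChevalleyStructure.NPerm Cfsg.Agent.ChevalleyStructure.CoxeterGeomTypes
  Cfsg.Agent.Nodes.RGDChev Cfsg.Agent.Nodes.RGDFold Cfsg.Agent.Nodes
open Cfsg.Agent.ChevalleyStructure.D4Fixed (sig)

universe u

section Dee

variable {K : Type u} [Field K] {q : ℕ} {φ : K →+* K}

theorem wU_hWord_eq (r : ℕ) (c : K) : D4Cols.wU (chevD4.hWord r c) = hG RGDTwD4.hp.inList r c := by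
  apply Units.ext
  rw [coe_hG]
  exact D4Cols.coe_wU _

theorem simple_D4 : chevD4.simple 0 = 18 ∧ chevD4.simple 1 = 14 ∧ chevD4.simple 2 = 13 ∧ chevD4.simple 3 = 12 := by
  decide +kernel

/-- the orbit torus -/
theorem hG_orbit (hφ : ∀ t, φ t = t ^ q) (c : K) :
    hG RGDTwD4.hp.inList (chevD4.simple (0 : Fin 4)) c * hG RGDTwD4.hp.inList (chevD4.simple (2 : Fin 4)) (c ^ q) *
      hG RGDTwD4.hp.inList (chevD4.simple (3 : Fin 4)) ((c ^ q) ^ q) ∈ twistedD4 K q := by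
  have h := D4H1.h_outer_mem hφ c
  rw [wU_hWord_eq, wU_hWord_eq, wU_hWord_eq, hφ, hφ] at h
  obtain ⟨s0, s1, s2, s3⟩ := simple_D4
  change hG RGDTwD4.hp.inList (chevD4.simple 0) c * hG RGDTwD4.hp.inList (chevD4.simple 2) (c ^ q) *
      hG RGDTwD4.hp.inList (chevD4.simple 3) ((c ^ q) ^ q) ∈ _
  rw [s0, s2, s3]
  exact h

/-- the table -/
theorem tab_D4 : chevD4.cartan 0 18 = 2 ∧ chevD4.cartan 2 18 = 0 ∧ chevD4.cartan 3 18 = 0 ∧
    V chevD4 RGDTwD4.J 18 = sr 1 ∧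
    (∀ s ∈ [5, 10, 11], (chevD4.cartan 0 s = -2 ∧ chevD4.cartan 2 s = 0 ∧ chevD4.cartan 3 s = 0) ∨
      (chevD4.cartan 0 s = 0 ∧ chevD4.cartan 2 s = -2 ∧ chevD4.cartan 3 s = 0) ∨
      (chevD4.cartan 0 s = 0 ∧ chevD4.cartan 2 s = 0 ∧ chevD4.cartan 3 s = -2)) ∧
    (∀ s < 24, V chevD4 RGDTwD4.J s = ![1, 1] →
      (chevD4.cartan 0 s = 1 ∧ chevD4.cartan 2 s = -1 ∧ chevD4.cartan 3 s = -1) ∨
      (chevD4.cartan 0 s = -1 ∧ chevD4.cartan 2 s = 1 ∧ chevD4.cartan 3 s = -1) ∨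
      (chevD4.cartan 0 s = -1 ∧ chevD4.cartan 2 s = -1 ∧ chevD4.cartan 3 s = 1)) := by decide +kernel

theorem chkD : RGDTwD4.A 0 0 = 2 ∧ RGDTwD4.A 0 1 = -1 := by decide +kernel

variable (hφ : ∀ t, φ t = t ^ q) (hle : twistedD4 K q ≤ D4Fixed.fix φ) [Fintype K]
  {W : Type*} [Group W] [Finite W] {cs : CoxeterSystem CoxeterMatrix.G₂ W} {p : ℕ} [Fact p.Prime] [CharP K p]
  (hgen : B cs RGDTwD4.isCartan ((chevD4.diagonalSubgroup K ⊓ twistedD4 K q).subgroupOf (twistedD4 K q))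
      (fun z => (RGDFold.R chevD4 RGDTwD4.hp K RGDTwD4.J (sig φ) z).subgroupOf (twistedD4 K q)) ⊔
      NN cs (RGDFold.rgd cs RGDTwD4.isCartan RGDTwD4.foldData (RGDTwD4.foldGrp hφ hle) p).nsys = ⊤)
  [hN : ((((RGDFold.rgd cs RGDTwD4.isCartan RGDTwD4.foldData (RGDTwD4.foldGrp hφ hle) p).bnPair hgen).B ⊓
    ((RGDFold.rgd cs RGDTwD4.isCartan RGDTwD4.foldData (RGDTwD4.foldGrp hφ hle) p).bnPair hgen).N).subgroupOf
    ((RGDFold.rgd cs RGDTwD4.isCartan RGDTwD4.foldData (RGDTwD4.foldGrp hφ hle) p).bnPair hgen).N).Normal]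
  (cs' : CoxeterSystem CoxeterMatrix.G₂
    (WP ((RGDFold.rgd cs RGDTwD4.isCartan RGDTwD4.foldData (RGDTwD4.foldGrp hφ hle) p).bnPair hgen)))
  (hcs : ∀ i, cs'.simple i = QuotientGroup.mk
    (⟨(eS (RGDFold.rgd cs RGDTwD4.isCartan RGDTwD4.foldData (RGDTwD4.foldGrp hφ hle) p) hgen i :
      ↥(twistedD4 K q)),
      ((RGDFold.rgd cs RGDTwD4.isCartan RGDTwD4.foldData (RGDTwD4.foldGrp hφ hle) p).bnPair hgen).subset
      (eS (RGDFold.rgd cs RGDTwD4.isCartan RGDTwD4.foldData (RGDTwD4.foldGrp hφ hle) p) hgen i).2⟩ :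
      ((RGDFold.rgd cs RGDTwD4.isCartan RGDTwD4.foldData (RGDTwD4.foldGrp hφ hle) p).bnPair hgen).N))
  (hcore : (B cs RGDTwD4.isCartan ((chevD4.diagonalSubgroup K ⊓ twistedD4 K q).subgroupOf (twistedD4 K q))
      (fun z => (RGDFold.R chevD4 RGDTwD4.hp K RGDTwD4.J (sig φ) z).subgroupOf (twistedD4 K q))).normalCore = ⊥)

include hφ in
/-- the orbit character -/
theorem orbit_dvd {s s' : ℕ}
    (hχ : ∀ (t : GL chevD4.Idx K), t ∈ chevD4.diagonalSubgroup K → t ∈ twistedD4 K q →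
      ∀ χ : ℕ → K, (∀ s < chevD4.nroots, ∀ c : K, t * xG RGDTwD4.hp.inList s c * t⁻¹ =
        xG RGDTwD4.hp.inList s (χ s * c)) → χ s' = χ s) :
    ((Fintype.card K : ℤ) - 1) ∣ (chevD4.cartan 0 s' + q * chevD4.cartan 2 s' + q * q * chevD4.cartan 3 s') -
      (chevD4.cartan 0 s + q * chevD4.cartan 2 s + q * q * chevD4.cartan 3 s) := by
  refine dvd_of_zpow fun c hc => ?_
  have hcq : c ^ q ≠ 0 := pow_ne_zero _ hc
  have hcqq : (c ^ q) ^ q ≠ 0 := pow_ne_zero _ hcq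
  have h1 := hχ _ (mul_mem (mul_mem
    (hG_mem_diagonal RGDTwD4.hp.inList (simple_lt RGDTwD4.hp.inList (lt_rank RGDTwD4.hp (0 : Fin 4))) hc)
    (hG_mem_diagonal RGDTwD4.hp.inList (simple_lt RGDTwD4.hp.inList (lt_rank RGDTwD4.hp (2 : Fin 4))) hcq))
    (hG_mem_diagonal RGDTwD4.hp.inList (simple_lt RGDTwD4.hp.inList (lt_rank RGDTwD4.hp (3 : Fin 4))) hcqq))
    (hG_orbit hφ c) _
    (chi_mul RGDTwD4.hp.inList (chi_mul RGDTwD4.hp.inList (hG_chi RGDTwD4.hp (0 : Fin 4) hc)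
      (hG_chi RGDTwD4.hp (2 : Fin 4) hcq)) (hG_chi RGDTwD4.hp (3 : Fin 4) hcqq))
  have key : ∀ r : ℕ, c ^ (chevD4.cartan 0 r + q * chevD4.cartan 2 r + q * q * chevD4.cartan 3 r) =
      c ^ chevD4.cartan 0 r * (c ^ q) ^ chevD4.cartan 2 r * ((c ^ q) ^ q) ^ chevD4.cartan 3 r := by
    intro r
    rw [zpow_add₀ hc, zpow_add₀ hc, zpow_mul, zpow_natCast, mul_assoc (q : ℤ), zpow_mul, zpow_natCast, zpow_mul,
      zpow_natCast]
  rw [key, key]
  exact h1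

include hcore in
/-- **`³D₄(q)`** -/
theorem dis_D4 (hK : Fintype.card K = q ^ 3) (hq : 2 ≤ q) {a b : ↥(twistedD4 K q)} (hab : Good p a b) {w : W}
    (hw : fw cs cs' w ∈ Dis (Bl (RGDFold.rgd cs RGDTwD4.isCartan RGDTwD4.foldData (RGDTwD4.foldGrp hφ hle) p)
      hgen cs' hcs) a b) :
    w = 1 ∨ (q = 2 ∧ (∃ u : W, u * w * u⁻¹ = cs.simple 0) ∧
      fw cs cs' (cs.simple 0) ∈ Dis (Bl (RGDFold.rgd cs RGDTwD4.isCartan RGDTwD4.foldData (RGDTwD4.foldGrp hφ hle) p)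
        hgen cs' hcs) a b) := by
  have F : Cox cs := inferInstance
  obtain ⟨u, J, h1, h2, h3⟩ := exists_J
    (RGDFold.rgd cs RGDTwD4.isCartan RGDTwD4.foldData (RGDTwD4.foldGrp hφ hle) p) hgen cs' hcs hcore hab hw
  obtain ⟨t0, t2, t3, tV, tneg, tsum⟩ := tab_D4
  obtain ⟨a00, a01⟩ := chkD
  have hn : chevD4.nroots = 24 := by decide +kernel
  have hcard : ((Fintype.card K : ℤ) - 1) = (q : ℤ) ^ 3 - 1 := by rw [hK]; push_cast; rfl
  have hq' : (2 : ℤ) ≤ q := by exact_mod_cast hq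
  have g1 : (0 : ℤ) ≤ ((q : ℤ) - 2) * (q : ℤ) ^ 2 := mul_nonneg (sub_nonneg.2 hq') (sq_nonneg _)
  have g2 : (0 : ℤ) ≤ ((q : ℤ) - 2) * (q : ℤ) := mul_nonneg (sub_nonneg.2 hq') (by linarith)
  have hno : ∀ x y : ℤ, ((q : ℤ) ^ 3 - 1) ∣ y → y = x → 0 < x → x < (q : ℤ) ^ 3 - 1 → False := by
    intro x y hd hy hx hx2
    have h4 := Int.le_of_dvd (hy ▸ hx) hd
    omega
  -- the short node
  have n1 : (1 : Fin 2) ∉ J := by
    intro hJ
    obtain ⟨s', hs', hV, hχ⟩ := fold_chi RGDTwD4.foldData (RGDTwD4.foldGrp hφ hle) hgen cs' hcs hcore hab h2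
      (s := 18) (by rw [hn]; norm_num)
    rw [tV, (h3 1 hJ).2] at hV
    have h4 := orbit_dvd hφ hχ
    rw [hcard, t0, t2, t3] at h4
    have h5 := (dvd_neg.2 h4)
    rcases tneg s' ((RGDTwD4.cls1' s' hs').1 hV) with ⟨e1, e2, e3⟩ | ⟨e1, e2, e3⟩ | ⟨e1, e2, e3⟩
    · rw [e1, e2, e3] at h5
      exact hno 4 _ h5 (by ring) (by norm_num) (by nlinarith)
    · rw [e1, e2, e3] at h5
      exact hno (2 * q + 2) _ h5 (by ring) (by linarith) (by nlinarith)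
    · rw [e1, e2, e3] at h5
      rcases hq.lt_or_eq with hq2 | hq2
      · have hq3 : (3 : ℤ) ≤ q := by exact_mod_cast hq2
        have hq9 : (0 : ℤ) ≤ ((q : ℤ) - 3) * (q : ℤ) ^ 2 := mul_nonneg (sub_nonneg.2 hq3) (sq_nonneg _)
        exact hno (2 * (q : ℤ) * q + 2) _ h5 (by ring) (by nlinarith) (by nlinarith)
      · subst hq2
        norm_num at h5
  by_cases h0J : (0 : Fin 2) ∈ J
  · right
    have hJ : J = {0} := by
      ext i
      fin_cases i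
      · exact ⟨fun _ => rfl, fun _ => h0J⟩
      · exact ⟨fun h => absurd h n1, fun h => absurd h (by decide)⟩
    have hwJ : wJ cs J = cs.simple 0 := by
      refine (F.eq_wJ_of_descents (J := J) (simple_mem_WJ (cs := cs) h0J) fun j hj => ?_).symm
      rw [hJ, Set.mem_singleton_iff] at hj
      rw [hj, cs.simple_mul_simple_self, cs.length_one, cs.length_simple]
      norm_num
    have hq2 : q = 2 := by
      by_contra hne
      have hq3 : (3 : ℤ) ≤ q := by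
        have : 3 ≤ q := by omega
        exact_mod_cast this
      obtain ⟨s', hs', hV, hχ⟩ := fold_chi RGDTwD4.foldData (RGDTwD4.foldGrp hφ hle) hgen cs' hcs hcore hab h2
        (s := 18) (by rw [hn]; norm_num)
      have e5 : rep cs RGDTwD4.isCartan (wJ cs J) (sr 1) = ![1, 1] := by
        rw [hwJ, rep_simple_eq]
        have h7 : pairing RGDTwD4.A 0 (sr 1) = -1 := by
          unfold pairing
          rw [Fin.sum_univ_two, a00, a01]
          have w10 : (sr 1 : Fin 2 → ℤ) 0 = 0 := by decide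
          rw [w10, sr_self]
          norm_num
        rw [h7]
        funext i
        fin_cases i <;> decide
      rw [tV, e5] at hV
      have h4 := orbit_dvd hφ hχ
      rw [hcard, t0, t2, t3] at h4
      have h5 := (dvd_neg.2 h4)
      have hq9 : (0 : ℤ) ≤ ((q : ℤ) - 3) * (q : ℤ) ^ 2 := mul_nonneg (sub_nonneg.2 hq3) (sq_nonneg _)
      rcases tsum s' (by rw [← hn]; exact hs') hV with ⟨e1, e2, e3⟩ | ⟨e1, e2, e3⟩ | ⟨e1, e2, e3⟩
      · rw [e1, e2, e3] at h5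
        exact hno (q * q + q + 1) _ h5 (by ring) (by nlinarith) (by nlinarith)
      · rw [e1, e2, e3] at h5
        exact hno (q * q - q + 3) _ h5 (by ring) (by nlinarith) (by nlinarith)
      · rw [e1, e2, e3] at h4
        exact hno (q * q - q - 3) _ h4 (by ring) (by nlinarith) (by nlinarith)
    rw [hwJ] at h1 h2
    exact ⟨hq2, ⟨u, h1⟩, h2⟩
  · left
    have hJ : J = ∅ := by
      ext i
      fin_cases i
      · exact ⟨fun h => absurd h h0J, fun h => h.elim⟩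
      · exact ⟨fun h => absurd h n1, fun h => h.elim⟩
    subst hJ
    exact eq_one_of_conj_wJ_empty h1

end Dee

end Cfsg.Agent.H82.AH
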