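import Cfsg.Agent.H82.AH.Tor

/-!
# S2451 (helper82): common displacements `w_J` and the reflection representation

* `rep_eq_neg` : `s_i w = w s_i`, `w s_i < w` imply `w α_i = -α_i`;
* `pairing_neg` : then `⟨w x, α_i^∨⟩ = -⟨x, α_i^∨⟩`;
* `eq_w0_of_neg` : `w α_i = -α_i` for all `i` implies `w = w₀`;
* `exists_J` : a common displacement `≠ 1` is conjugate to some `w_J ∈ Dis`, `J ≠ ∅`, `w_J = -1` on `J`.
-/

set_option autoImplicit false
set_option linter.unusedSectionVars false

open scoped Pointwise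

namespace Cfsg.Agent.H82.AH

open CoxeterSystem Cfsg.Agent.ChevalleyStructure.CoxeterGeom Cfsg.Agent.Tits.Roots Cfsg.Agent.Tits.Core
  Cfsg.Agent.Tits.RootComb Cfsg.Agent.Nodes.Comb Cfsg.Agent.Nodes.Reps Cfsg.Agent.Nodes.BNOf Cfsg.Agent.Nodes.BNOf.RGD
  Cfsg.Agent.FixBN Cfsg.Agent.Tits.OfBN Cfsg.Agent.Tits.OppRes Cfsg.Agent.LieExceptional.BNPairCore
  Cfsg.Agent.OddHalf.Table.AutBldg Cfsg.Agent.OddHalf.Table.AutRGD Cfsg.Agent.OddHalf.Table.AutNorm
  Cfsg.Agent.Tits Cfsg.Agent.Nodes.RGDLib Cfsg.Agent.UGT.U2.FOne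
open Cfsg.Agent.Tits.Core.Bldg Cfsg.Agent.H197.Cls

section Cox

variable {I W : Type*} [Fintype I] [DecidableEq I] [Group W] {M : CoxeterMatrix I}
  {cs : CoxeterSystem M W} {A : I → I → ℤ} {h : IsCartan M A}

theorem rep_eq_pm {w : W} {i : I} (hc : cs.simple i * w = w * cs.simple i) :
    rep cs h w (sr i) = sr i ∨ rep cs h w (sr i) = -sr i := by
  set x := rep cs h w (sr i) with hx
  have h1 : rep cs h (cs.simple i) x = -x := by
    rw [hx, ← rep_mul_apply, hc, rep_mul_apply, rep_simple_sr, map_neg]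
  rw [rep_simple_eq] at h1
  have hk : ∀ k, k ≠ i → x k = 0 := by
    intro k hk
    have h2 := congrFun h1 k
    rw [Pi.sub_apply, Pi.smul_apply, sr_ne hk, smul_zero, sub_zero, Pi.neg_apply] at h2
    omega
  have h2 : x = x i • sr i := by
    funext k
    by_cases hki : k = i
    · subst hki; rw [Pi.smul_apply, sr_self, smul_eq_mul, mul_one]
    · rw [Pi.smul_apply, sr_ne hki, smul_zero, hk k hki]
  have hroot : IsRoot cs h x := (isRoot_sr cs h i).act w
  rcases Int.isUnit_iff.1 (isUnit_of_smul cs h hroot _ h2) with h3 | h3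
  · left; rw [h2, h3, one_smul]
  · right; rw [h2, h3, neg_smul, one_smul]

theorem rep_eq_neg {w : W} {i : I} (hc : cs.simple i * w = w * cs.simple i)
    (hl : cs.length (w * cs.simple i) < cs.length w) : rep cs h w (sr i) = -sr i := by
  rcases rep_eq_pm (h := h) hc with h1 | h1
  · exfalso
    have h2 : rep cs h w (sr i) ≤ 0 := nonpos_of_lt cs h w i hl
    rw [h1] at h2
    have h3 : (1 : ℤ) ≤ 0 := by
      have h4 := h2 i
      rwa [sr_self, Pi.zero_apply] at h4
    exact absurd h3 (by decide)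
  · exact h1

theorem pairing_neg {w : W} {i : I} (hc : cs.simple i * w = w * cs.simple i)
    (hn : rep cs h w (sr i) = -sr i) (x : I → ℤ) : pairing A i (rep cs h w x) = -pairing A i x := by
  have h1 : rep cs h (cs.simple i) (rep cs h w x) = rep cs h w (rep cs h (cs.simple i) x) := by
    rw [← rep_mul_apply, hc, rep_mul_apply]
  rw [rep_simple_eq, rep_simple_eq, map_sub, map_smul, hn] at h1
  have h2 := congrFun h1 i
  simp only [Pi.sub_apply, Pi.smul_apply, Pi.neg_apply, sr_self, smul_eq_mul] at h2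
  linarith

theorem eq_w0_of_neg [Finite W] {w : W} (h0 : ∀ i, rep cs h w (sr i) = -sr i) : w = w0 cs := by
  have F : Cox cs := inferInstance
  refine F.eq_wJ_of_descents (J := Set.univ) (by rw [WJ_univ]; trivial) fun j _ => ?_
  by_contra hcon
  have h1 : cs.length w < cs.length (w * cs.simple j) :=
    lt_of_le_of_ne (not_lt.1 hcon) (cs.length_mul_simple_ne w j).symm
  have h2 : 0 ≤ rep cs h w (sr j) := nonneg_of_lt cs h w j h1
  rw [h0] at h2
  have h3 : (0 : ℤ) ≤ -1 := by
    have h4 := h2 j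
    rwa [Pi.neg_apply, sr_self, Pi.zero_apply] at h4
  exact absurd h3 (by decide)

theorem eq_one_of_pos {w : W} (h0 : ∀ i, rep cs h w (sr i) = sr i) : w = 1 := eq_one_of_fix cs h w h0

/-- off `J` the elements of `W_J` change only the coordinates in `J` -/
theorem rep_off {J : Set I} {w : W} (hw : w ∈ WJ cs J) (x : I → ℤ) {k : I} (hk : k ∉ J) :
    rep cs h w x k = x k := rep_apply_of_mem cs h hw x hk

end Cox

variable {I W Y : Type*} [Fintype I] [DecidableEq I] [Group W] [Group Y] {M : CoxeterMatrix I}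
  {cs : CoxeterSystem M W} {A : I → I → ℤ} {h : IsCartan M A} {p : ℕ} {T : Subgroup Y} {n : I → Y}
  {X : (I → ℤ) → Subgroup Y} [Finite W]

variable (R : RGD cs h p T n X) (hgen : B cs h T X ⊔ NN cs R.nsys = ⊤)
  [hN : (((R.bnPair hgen).B ⊓ (R.bnPair hgen).N).subgroupOf (R.bnPair hgen).N).Normal]
  (cs' : CoxeterSystem M (WP (R.bnPair hgen)))
  (hcs : ∀ i, cs'.simple i = QuotientGroup.mk
    (⟨(eS R hgen i : Y), (R.bnPair hgen).subset (eS R hgen i).2⟩ : (R.bnPair hgen).N))

variable [Finite Y] [hpf : Fact p.Prime] (hcore : (B cs h T X).normalCore = ⊥)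

include hcore in
/-- A common displacement is conjugate to some `w_J`, `w_J = -1` on `J`. -/
theorem exists_J {a b : Y} (hab : Good p a b) {v : W} (hv : fw cs cs' v ∈ Dis (Bl R hgen cs' hcs) a b) :
    ∃ (u : W) (J : Set I), u * v * u⁻¹ = wJ cs J ∧ fw cs cs' (wJ cs J) ∈ Dis (Bl R hgen cs' hcs) a b ∧
      ∀ i ∈ J, cs.simple i * wJ cs J = wJ cs J * cs.simple i ∧ rep cs h (wJ cs J) (sr i) = -sr i := by
  have hW : Finite (WP (R.bnPair hgen)) := Finite.of_equiv W (fw cs cs').toEquiv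
  have F : Cox cs := inferInstance
  have F' : Cox cs' := inferInstance
  have hth : (Bl R hgen cs' hcs).Thick := thick (R.bnPair hgen) (eS R hgen) cs' hcs
  set S := Sy R hgen cs' hcs hcore with hS
  obtain ⟨u, J, h1, h2⟩ := exists_wJ S hth hab hv
  have hinj : Function.Injective (fw cs cs') := (fw cs cs').injective
  obtain ⟨u', rfl⟩ : ∃ u', fw cs cs' u' = u := ⟨fw cs' cs u, fw_fw cs cs' u⟩
  rw [← fw_wJ cs cs' J] at h1 h2
  have e1 : u' * v * u'⁻¹ = wJ cs J := by
    apply hinj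
    rw [map_mul, map_mul, map_inv, h1]
  refine ⟨u', J, e1, ?_, fun i hi => ?_⟩
  · rw [← h1]
    exact dis_conj_mem S hth hab hv _
  · have h3 : cs.simple i * wJ cs J = wJ cs J * cs.simple i := by
      apply hinj
      rw [map_mul, map_mul, fw_simple]
      exact h2 i hi
    refine ⟨h3, rep_eq_neg h3 ?_⟩
    have h4 := F.len_wJ_mul (simple_mem_WJ (cs := cs) hi)
    rw [cs.length_simple] at h4
    omega

end Cfsg.Agent.H82.AH
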