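import Cfsg.Agent.H82.AH.DisUntw

/-!
# S2451 (helper82): no common displacement is a simple reflection (untwisted groups, `q ≥ 3`)

`simple_not_mem` : the node `i` with a neighbour `k` joined by a single bond; `tab_E6`, `tab_E7`, `tab_E8`, `tab_F4` : the
tables of the exceptional types.
-/

set_option autoImplicit false
set_option linter.unusedSectionVars false

open scoped Pointwise

namespace Cfsg.Agent.H82.AH

open CoxeterSystem Cfsg.Agent.ChevalleyStructure.CoxeterGeom Cfsg.Agent.Tits.Roots Cfsg.Agent.Tits.Core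
  Cfsg.Agent.Tits.RootComb Cfsg.Agent.Nodes.Comb Cfsg.Agent.Nodes.Reps Cfsg.Agent.Nodes.BNOf Cfsg.Agent.Nodes.BNOf.RGD
  Cfsg.Agent.FixBN Cfsg.Agent.Tits.OfBN Cfsg.Agent.Tits.OppRes Cfsg.Agent.LieExceptional.BNPairCore
  Cfsg.Agent.OddHalf.Table.AutBldg Cfsg.Agent.OddHalf.Table.AutRGD Cfsg.Agent.OddHalf.Table.AutNorm
  Cfsg.Agent.Tits Cfsg.Agent.Nodes.RGDLib Cfsg.Agent.UGT.U2.FOne
open Cfsg.Agent.Tits.Core.Bldg Cfsg.Agent.H197.Cls
open Cfsg.Lie Cfsg.Agent.ChevalleyStructure Cfsg.Agent.ChevalleyStructure.Elts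
  Cfsg.Agent.ChevalleyStructure.RootVec Cfsg.Agent.ChevalleyStructure.RootVecTab
  Cfsg.Agent.ChevalleyStructure.NPerm Cfsg.Agent.ChevalleyStructure.CoxeterGeomTypes
  Cfsg.Agent.Nodes.RGDChev Cfsg.Agent.Nodes.RGDFold

universe u

section Untw

variable {D : ChevalleyDatum} {l : ℕ} {M : CoxeterMatrix (Fin l)} (hp : IsType D l M) {K : Type u} [Field K]
  [Fintype K] {W : Type*} [Group W] [Finite W] {cs : CoxeterSystem M W} {p : ℕ} [Fact p.Prime] [CharP K p]
  (hgen : B cs hp.isCartan ((D.diagonalSubgroup K).subgroupOf (D.group K))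
      (fun x => (XV D l K x).subgroupOf (D.group K)) ⊔ NN cs (rgd (K := K) hp cs p).nsys = ⊤)
  [hN : ((((rgd (K := K) hp cs p).bnPair hgen).B ⊓ ((rgd (K := K) hp cs p).bnPair hgen).N).subgroupOf
    ((rgd (K := K) hp cs p).bnPair hgen).N).Normal]
  (cs' : CoxeterSystem M (WP ((rgd (K := K) hp cs p).bnPair hgen)))
  (hcs : ∀ i, cs'.simple i = QuotientGroup.mk
    (⟨(eS (rgd (K := K) hp cs p) hgen i : ↥(D.group K)), ((rgd (K := K) hp cs p).bnPair hgen).subset
      (eS (rgd (K := K) hp cs p) hgen i).2⟩ : ((rgd (K := K) hp cs p).bnPair hgen).N))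
  (hcore : (B cs hp.isCartan ((D.diagonalSubgroup K).subgroupOf (D.group K))
      (fun x => (XV D l K x).subgroupOf (D.group K))).normalCore = ⊥)

include hcore in
/-- **no reflection** -/
theorem simple_not_mem {i : Fin l}
    (hi : ∃ k : Fin l, D.cartan k (D.reflectRoot i (D.simple k)) - D.cartan k (D.simple k) = -1)
    (hq : 3 ≤ Fintype.card K) {a b : ↥(D.group K)} (hab : Good p a b) :
    cs'.simple i ∉ Dis (Bl (rgd (K := K) hp cs p) hgen cs' hcs) a b := by
  intro hw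
  obtain ⟨k, hk⟩ := hi
  rw [← fw_simple cs cs' i] at hw
  have hs := simple_lt hp.inList (lt_rank hp k)
  have h1 : (((Fintype.card K : ℤ) - 1) ∣ -1) := by
    rw [← hk]
    exact cartan_dvd hp hgen cs' hcs hcore hab hw hs (wp_lt hp [i] hs) (rep_vec hp cs i hs).symm k
  have h2 := Int.le_of_dvd (by norm_num) (Int.dvd_neg.1 h1)
  have h5 : (3 : ℤ) ≤ Fintype.card K := by exact_mod_cast hq
  omega

end Untw

theorem tab_F4 : ∀ i : Fin 4, ∃ k : Fin 4, chevF4.cartan k (chevF4.reflectRoot i (chevF4.simple k)) -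
    chevF4.cartan k (chevF4.simple k) = -1 := by decide +kernel

theorem tab_E6 : ∀ i : Fin 6, ∃ k : Fin 6, chevE6.cartan k (chevE6.reflectRoot i (chevE6.simple k)) -
    chevE6.cartan k (chevE6.simple k) = -1 := by decide +kernel

theorem tab_E7 : ∀ i : Fin 7, ∃ k : Fin 7, chevE7.cartan k (chevE7.reflectRoot i (chevE7.simple k)) -
    chevE7.cartan k (chevE7.simple k) = -1 := by decide +kernel

theorem tab_E8 : ∀ i : Fin 8, ∃ k : Fin 8, chevE8.cartan k (chevE8.reflectRoot i (chevE8.simple k)) -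
    chevE8.cartan k (chevE8.simple k) = -1 := by decide +kernel

end Cfsg.Agent.H82.AH
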