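import Cfsg.Agent.H82.AH.DisUntw
import Cfsg.Agent.Nodes.RGDTwE6

/-!
# S2451 (helper82): the common displacements for `²E₆(q)`

* `fold_chi` : comparison of the characters in a folded group;
* `dis_E6` : `²E₆(q)`, `q ≥ 3`: `Dis ⊆ {1}`.
-/

set_option autoImplicit false
set_option linter.unusedSectionVars false

open scoped Pointwise

namespace Cfsg.Agent.H82.AH

open CoxeterSystem Cfsg.Agent.ChevalleyStructure.CoxeterGeom Cfsg.Agent.Tits.Roots Cfsg.Agent.Tits.Core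
  Cfsg.Agent.Tits.RootComb Cfsg.Agent.Nodes.Comb Cfsg.Agent.Nodes.Reps Cfsg.Agent.Nodes.BNOf Cfsg.Agent.Nodes.BNOf.RGD
  Cfsg.Agent.FixBN Cfsg.Agent.Tits.OfBN Cfsg.Agent.Tits.OppRes Cfsg.Agent.LieExceptional.BNPairCore
  Cfsg.Agent.OddHalf.Table.AutBldg Cfsg.Agent.OddHalf.Table.AutRGD Cfsg.Agent.OddHalf.Table.AutNorm
  Cfsg.Agent.Tits Cfsg.Agent.Nodes.RGDLib Cfsg.Agent.UGT.U2.FOne
open Cfsg.Agent.Tits.Core.Bldg Cfsg.Agent.H197.Cls
open Cfsg.Lie Cfsg.Agent.ChevalleyStructure Cfsg.Agent.ChevalleyStructure.Elts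
  Cfsg.Agent.ChevalleyStructure.RootVec Cfsg.Agent.ChevalleyStructure.RootVecTab
  Cfsg.Agent.ChevalleyStructure.NPerm Cfsg.Agent.ChevalleyStructure.CoxeterGeomTypes
  Cfsg.Agent.Nodes.RGDChev Cfsg.Agent.Nodes.RGDFold Cfsg.Agent.Nodes

universe u

section Fold

variable {D : ChevalleyDatum} {l m : ℕ} {M' : CoxeterMatrix (Fin l)} {hp : IsType D l M'} {K : Type u} [Field K]
  [Fintype K] {M : CoxeterMatrix (Fin m)} {A : Fin m → Fin m → ℤ} {J : Fin m → List (Fin l)} {L : List (List ℕ)}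
  {σ : GL D.Idx K →* GL D.Idx K} {ρ ρ' : ℕ → ℕ} {f : ℕ → K → K} {G : Subgroup (GL D.Idx K)}
  {W : Type*} [Group W] [Finite W] {cs : CoxeterSystem M W} {h : IsCartan M A}
  (FD : FoldData D M A J L) (FG : FoldGrp hp K J L σ ρ ρ' f G) {p : ℕ} [Fact p.Prime] [CharP K p]

theorem wp_append (o o' : List (Fin l)) (s : ℕ) : wp D (o ++ o') s = wp D o (wp D o' s) := by
  induction o with
  | nil => rfl
  | cons j o ih =>
    change D.reflectRoot j (wp D (o ++ o') s) = D.reflectRoot j (wp D o (wp D o' s))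
    rw [ih]

include hp in
omit [Fintype K] [Finite W] [Fact p.Prime] [CharP K p] in
theorem V_wp (cs : CoxeterSystem M W) (h : IsCartan M A) (FD : FoldData D M A J L) (ω : List (Fin m)) {s : ℕ}
    (hs : s < D.nroots) : V D J (wp D (ω.flatMap J) s) = rep cs h (cs.wordProd ω) (V D J s) := by
  induction ω with
  | nil => rw [wordProd_nil, map_one, Module.End.one_apply]; rfl
  | cons i ω ih =>
    rw [List.flatMap_cons, wp_append, FD.wp_V _ (wp_lt hp _ hs), wordProd_cons, rep_mul_apply, ← ih, rep_refl]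

theorem nI_append (o o' : List (Fin l)) : nI hp K (o ++ o') = nI hp K o * nI hp K o' := by
  unfold nI
  rw [List.map_append, List.prod_append]

theorem prod_nI (ω : List (Fin m)) : (ω.map fun i => nI hp K (J i)).prod = nI hp K (ω.flatMap J) := by
  induction ω with
  | nil => rfl
  | cons i ω ih => rw [List.map_cons, List.prod_cons, ih, List.flatMap_cons, nI_append]

variable (hgen : B cs h ((D.diagonalSubgroup K ⊓ G).subgroupOf G)
      (fun z => (RGDFold.R D hp K J σ z).subgroupOf G) ⊔ NN cs (RGDFold.rgd cs h FD FG p).nsys = ⊤)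
  [hN : ((((RGDFold.rgd cs h FD FG p).bnPair hgen).B ⊓ ((RGDFold.rgd cs h FD FG p).bnPair hgen).N).subgroupOf
    ((RGDFold.rgd cs h FD FG p).bnPair hgen).N).Normal]
  (cs' : CoxeterSystem M (WP ((RGDFold.rgd cs h FD FG p).bnPair hgen)))
  (hcs : ∀ i, cs'.simple i = QuotientGroup.mk
    (⟨(eS (RGDFold.rgd cs h FD FG p) hgen i : ↥G), ((RGDFold.rgd cs h FD FG p).bnPair hgen).subset
      (eS (RGDFold.rgd cs h FD FG p) hgen i).2⟩ : ((RGDFold.rgd cs h FD FG p).bnPair hgen).N))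
  (hcore : (B cs h ((D.diagonalSubgroup K ⊓ G).subgroupOf G)
      (fun z => (RGDFold.R D hp K J σ z).subgroupOf G)).normalCore = ⊥)

include hcore in
/-- **folded groups** -/
theorem fold_chi {a b : ↥G} (hab : Good p a b) {w : W}
    (hw : fw cs cs' w ∈ Dis (Bl (RGDFold.rgd cs h FD FG p) hgen cs' hcs) a b) {s : ℕ} (hs : s < D.nroots) :
    ∃ s' < D.nroots, V D J s' = rep cs h w (V D J s) ∧ ∀ (t : GL D.Idx K), t ∈ D.diagonalSubgroup K → t ∈ G →
      ∀ χ : ℕ → K, (∀ s < D.nroots, ∀ c : K, t * xG hp.inList s c * t⁻¹ = xG hp.inList s (χ s * c)) →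
        χ s' = χ s := by
  have hW : Finite (WP ((RGDFold.rgd cs h FD FG p).bnPair hgen)) := Finite.of_equiv W (fw cs cs').toEquiv
  have F' : Cox cs' := inferInstance
  obtain ⟨ω, rfl⟩ := cs.wordProd_surjective w
  refine ⟨wp D (ω.flatMap J) s, wp_lt hp _ hs, V_wp (hp := hp) cs h FD ω hs, fun t htd htG χ hχ => ?_⟩
  have hT : ∀ s ∈ (D.diagonalSubgroup K ⊓ G).subgroupOf G, ∀ t ∈ (D.diagonalSubgroup K ⊓ G).subgroupOf G,
      s * t = t * s := fun s hs t ht =>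
    Subtype.ext (OddHalf.Small.ChevCent.diag_comm hp.inList (Subgroup.mem_subgroupOf.1 hs).1
      (Subgroup.mem_subgroupOf.1 ht).1)
  have h1 := comm_of_mem_dis (RGDFold.rgd cs h FD FG p) hgen cs' hcs hcore hT hab
    (rp_word (RGDFold.rgd cs h FD FG p).nsys ω) hw (t := ⟨t, htG⟩) (Subgroup.mem_subgroupOf.2 ⟨htd, htG⟩)
  have h2 : ((((ω.map fun i => (⟨nI hp K (J i), FG.nG i⟩ : ↥G)).prod : ↥G)) : GL D.Idx K) =
      nI hp K (ω.flatMap J) := by
    rw [← prod_nI, SubmonoidClass.coe_list_prod, List.map_map]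
    rfl
  have h3 := congrArg (Subtype.val) h1
  have h4 : (nI hp K (ω.flatMap J))⁻¹ * t * nI hp K (ω.flatMap J) = t := by
    rw [← h2]
    exact h3
  exact chi_eq hp _ hχ h4 hs

end Fold

/-- the characters of a product -/
theorem chi_mul {D : ChevalleyDatum} (hD : InList D) {K : Type u} [Field K] {t t' : GL D.Idx K} {χ χ' : ℕ → K}
    (h : ∀ s < D.nroots, ∀ c : K, t * xG hD s c * t⁻¹ = xG hD s (χ s * c))
    (h' : ∀ s < D.nroots, ∀ c : K, t' * xG hD s c * t'⁻¹ = xG hD s (χ' s * c)) :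
    ∀ s < D.nroots, ∀ c : K, (t * t') * xG hD s c * (t * t')⁻¹ = xG hD s ((χ s * χ' s) * c) := by
  intro s hs c
  have e : (t * t') * xG hD s c * (t * t')⁻¹ = t * (t' * xG hD s c * t'⁻¹) * t⁻¹ := by group
  rw [e, h' s hs, h s hs, mul_assoc]

/-- linear algebra in a Cartan matrix of type `F₄` -/
theorem sum4 (A : Fin 4 → Fin 4 → ℤ) (i : Fin 4) (x : Fin 4 → ℤ) :
    pairing A i x = A i 0 * x 0 + A i 1 * x 1 + A i 2 * x 2 + A i 3 * x 3 := by
  unfold pairing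
  rw [Fin.sum_univ_four]

/-! ### `²E₆(q)` -/

section Six

open Cfsg.Agent.ChevalleyStructure.TwE6Basic (hE6 sg)
open Cfsg.Agent.ChevalleyStructure.TwE6BN (PairOK SingleOK single0 single1 pair2 pair3)

variable {K : Type u} [Field K] {q : ℕ} {φ : K →+* K} (hφ : ∀ t, φ t = t ^ q)

include hφ in
theorem hG_single {i : Fin 4} {j : ℕ} (C : SingleOK.{u} i j) {c : K} (hc : c ^ q = c) :
    hG hE6 j c ∈ twistedE6 K q := by
  have key : ∀ c : K, c ^ q = c → nG hE6 j c ∈ twistedE6 K q := by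
    intro c hc
    rw [nG_def]
    have h1 := C.pos_mem_G (q := q) hc
    have h2 := C.neg_mem_G (q := q) (t := -c⁻¹) (by rw [← hφ, map_neg, map_inv₀, hφ, hc])
    exact mul_mem h1 (mul_mem h2 h1)
  rw [hG_def]
  exact mul_mem (key c hc) (key (-1) (by rw [← hφ, map_neg, map_one]))

theorem nG_pair {i : Fin 4} {j j' : ℕ} (C : PairOK.{u} i j j') (a b : K) :
    nG hE6 j a * nG hE6 j' b = (xG hE6 j a * xG hE6 j' b) *
      (xG hE6 (chevE6.neg j) (-a⁻¹) * xG hE6 (chevE6.neg j') (-b⁻¹)) * (xG hE6 j a * xG hE6 j' b) := by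
  rw [nG_def, nG_def]
  have h1 : xG hE6 j a * xG hE6 j' b = xG hE6 j' b * xG hE6 j a := (C.comm1 a b).symm
  have h2 : xG hE6 j a * xG hE6 (chevE6.neg j') (-b⁻¹) = xG hE6 (chevE6.neg j') (-b⁻¹) * xG hE6 j a :=
    (C.comm2 a (-b⁻¹)).symm
  have h3 : xG hE6 (chevE6.neg j) (-a⁻¹) * xG hE6 j' b = xG hE6 j' b * xG hE6 (chevE6.neg j) (-a⁻¹) :=
    (C.comm3 (-a⁻¹) b).symm
  calc xG hE6 j a * (xG hE6 (chevE6.neg j) (-a⁻¹) * xG hE6 j a) *
        (xG hE6 j' b * (xG hE6 (chevE6.neg j') (-b⁻¹) * xG hE6 j' b))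
      = xG hE6 j a * xG hE6 (chevE6.neg j) (-a⁻¹) * (xG hE6 j a * xG hE6 j' b) *
          xG hE6 (chevE6.neg j') (-b⁻¹) * xG hE6 j' b := by group
    _ = xG hE6 j a * xG hE6 (chevE6.neg j) (-a⁻¹) * (xG hE6 j' b * xG hE6 j a) *
          xG hE6 (chevE6.neg j') (-b⁻¹) * xG hE6 j' b := by rw [h1]
    _ = xG hE6 j a * (xG hE6 (chevE6.neg j) (-a⁻¹) * xG hE6 j' b) *
          (xG hE6 j a * xG hE6 (chevE6.neg j') (-b⁻¹)) * xG hE6 j' b := by group
    _ = xG hE6 j a * (xG hE6 j' b * xG hE6 (chevE6.neg j) (-a⁻¹)) *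
          (xG hE6 (chevE6.neg j') (-b⁻¹) * xG hE6 j a) * xG hE6 j' b := by rw [h2, h3]
    _ = _ := by group

include hφ in
theorem hG_pair {i : Fin 4} {j j' : ℕ} (C : PairOK.{u} i j j') (c : K) :
    hG hE6 j c * hG hE6 j' (c ^ q) ∈ twistedE6 K q := by
  have key : ∀ c : K, nG hE6 j c * nG hE6 j' (c ^ q) ∈ twistedE6 K q := by
    intro c
    rw [nG_pair C]
    have h1 := C.pos_mem_G (q := q) c
    have h2 := C.neg_mem_G (q := q) (-c⁻¹)
    have h3 : (-c⁻¹) ^ q = -(c ^ q)⁻¹ := by rw [← hφ, map_neg, map_inv₀, hφ]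
    rw [h3] at h2
    exact mul_mem (mul_mem h1 h2) h1
  have h1 : hG hE6 j c * hG hE6 j' (c ^ q) = (nG hE6 j c * nG hE6 j' (c ^ q)) *
      (nG hE6 j (-1) * nG hE6 j' ((-1) ^ q)) := by
    rw [hG_def, hG_def]
    have h2 : nG hE6 j' (c ^ q) * nG hE6 j (-1) = nG hE6 j (-1) * nG hE6 j' (c ^ q) := (C.commN (-1) (c ^ q)).eq
    have h3 : (-1 : K) ^ q = -1 := by rw [← hφ, map_neg, map_one]
    rw [h3]
    calc nG hE6 j c * nG hE6 j (-1) * (nG hE6 j' (c ^ q) * nG hE6 j' (-1))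
        = nG hE6 j c * (nG hE6 j (-1) * nG hE6 j' (c ^ q)) * nG hE6 j' (-1) := by group
      _ = nG hE6 j c * (nG hE6 j' (c ^ q) * nG hE6 j (-1)) * nG hE6 j' (-1) := by rw [h2]
      _ = _ := by group
  rw [h1]
  exact mul_mem (key c) (key (-1))

theorem simple_E6 : chevE6.simple 0 = 56 ∧ chevE6.simple 1 = 46 ∧ chevE6.simple 2 = 42 ∧ chevE6.simple 3 = 39 ∧
    chevE6.simple 4 = 37 ∧ chevE6.simple 5 = 36 := by decide +kernel

/-- the table of the short roots -/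
theorem tab_short : (∀ s' ∈ TwE6Basic.negE 2, (chevE6.cartan 0 s' = 1 ∧ chevE6.cartan 5 s' = 0) ∨
      (chevE6.cartan 0 s' = 0 ∧ chevE6.cartan 5 s' = 1)) ∧
    (chevE6.cartan 0 42 = -1 ∧ chevE6.cartan 5 42 = 0) ∧
    (∀ s' ∈ TwE6Basic.negE 3, (chevE6.cartan 2 s' = 1 ∧ chevE6.cartan 4 s' = 0) ∨
      (chevE6.cartan 2 s' = 0 ∧ chevE6.cartan 4 s' = 1)) ∧
    (chevE6.cartan 2 56 = -1 ∧ chevE6.cartan 4 56 = 0) := by decide +kernel

/-- the table of the long roots -/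
theorem tab_long : (∀ s < 72, V chevE6 RGDTwE6.J s = ![1, 1, 0, 0] → chevE6.cartan 1 s = 1 ∧ chevE6.cartan 3 s = 1) ∧
    chevE6.cartan 1 46 = 2 ∧ chevE6.cartan 3 39 = 2 ∧ V chevE6 RGDTwE6.J 42 = sr 2 ∧ V chevE6 RGDTwE6.J 56 = sr 3 ∧
    V chevE6 RGDTwE6.J 46 = sr 0 ∧ V chevE6 RGDTwE6.J 39 = sr 1 := by decide +kernel

theorem chk : RGDTwE6.A 0 0 = 2 ∧ RGDTwE6.A 0 1 = -1 ∧ RGDTwE6.A 0 2 = 0 ∧ RGDTwE6.A 0 3 = 0 ∧
    RGDTwE6.A 1 0 = -1 ∧ RGDTwE6.A 1 1 = 2 ∧ RGDTwE6.A 1 2 = -1 ∧ RGDTwE6.A 1 3 = 0 := by decide +kernel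

theorem sr4 : (sr 0 : Fin 4 → ℤ) = ![1, 0, 0, 0] ∧ (sr 1 : Fin 4 → ℤ) = ![0, 1, 0, 0] ∧
    (sr 2 : Fin 4 → ℤ) = ![0, 0, 1, 0] ∧ (sr 3 : Fin 4 → ℤ) = ![0, 0, 0, 1] := by decide

variable [Fintype K] (hqq : ∀ t : K, (t ^ q) ^ q = t)
  {W : Type*} [Group W] [Finite W] {cs : CoxeterSystem CoxeterMatrix.F₄ W} {p : ℕ} [Fact p.Prime] [CharP K p]
  (hgen : B cs RGDTwE6.isCartan ((chevE6.diagonalSubgroup K ⊓ twistedE6 K q).subgroupOf (twistedE6 K q))
      (fun z => (RGDFold.R chevE6 RGDTwE6.hp K RGDTwE6.J (sg φ) z).subgroupOf (twistedE6 K q)) ⊔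
      NN cs (RGDFold.rgd cs RGDTwE6.isCartan RGDTwE6.foldData (RGDTwE6.foldGrp hφ hqq) p).nsys = ⊤)
  [hN : ((((RGDFold.rgd cs RGDTwE6.isCartan RGDTwE6.foldData (RGDTwE6.foldGrp hφ hqq) p).bnPair hgen).B ⊓
    ((RGDFold.rgd cs RGDTwE6.isCartan RGDTwE6.foldData (RGDTwE6.foldGrp hφ hqq) p).bnPair hgen).N).subgroupOf
    ((RGDFold.rgd cs RGDTwE6.isCartan RGDTwE6.foldData (RGDTwE6.foldGrp hφ hqq) p).bnPair hgen).N).Normal]
  (cs' : CoxeterSystem CoxeterMatrix.F₄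
    (WP ((RGDFold.rgd cs RGDTwE6.isCartan RGDTwE6.foldData (RGDTwE6.foldGrp hφ hqq) p).bnPair hgen)))
  (hcs : ∀ i, cs'.simple i = QuotientGroup.mk
    (⟨(eS (RGDFold.rgd cs RGDTwE6.isCartan RGDTwE6.foldData (RGDTwE6.foldGrp hφ hqq) p) hgen i :
      ↥(twistedE6 K q)),
      ((RGDFold.rgd cs RGDTwE6.isCartan RGDTwE6.foldData (RGDTwE6.foldGrp hφ hqq) p).bnPair hgen).subset
      (eS (RGDFold.rgd cs RGDTwE6.isCartan RGDTwE6.foldData (RGDTwE6.foldGrp hφ hqq) p) hgen i).2⟩ :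
      ((RGDFold.rgd cs RGDTwE6.isCartan RGDTwE6.foldData (RGDTwE6.foldGrp hφ hqq) p).bnPair hgen).N))
  (hcore : (B cs RGDTwE6.isCartan ((chevE6.diagonalSubgroup K ⊓ twistedE6 K q).subgroupOf (twistedE6 K q))
      (fun z => (RGDFold.R chevE6 RGDTwE6.hp K RGDTwE6.J (sg φ) z).subgroupOf (twistedE6 K q))).normalCore = ⊥)

/-- the pairs -/
theorem pair_dvd {j j' : Fin 6} (hmem : ∀ c : K, hG RGDTwE6.hp.inList (chevE6.simple j) c *
      hG RGDTwE6.hp.inList (chevE6.simple j') (c ^ q) ∈ twistedE6 K q) {s s' : ℕ}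
    (hχ : ∀ (t : GL chevE6.Idx K), t ∈ chevE6.diagonalSubgroup K → t ∈ twistedE6 K q →
      ∀ χ : ℕ → K, (∀ s < chevE6.nroots, ∀ c : K, t * xG RGDTwE6.hp.inList s c * t⁻¹ =
        xG RGDTwE6.hp.inList s (χ s * c)) → χ s' = χ s) :
    ((Fintype.card K : ℤ) - 1) ∣ (chevE6.cartan j s' + q * chevE6.cartan j' s') -
      (chevE6.cartan j s + q * chevE6.cartan j' s) := by
  refine dvd_of_zpow fun c hc => ?_
  have hcq : c ^ q ≠ 0 := pow_ne_zero _ hc
  have h1 := hχ _ (mul_mem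
    (hG_mem_diagonal RGDTwE6.hp.inList (simple_lt RGDTwE6.hp.inList (lt_rank RGDTwE6.hp j)) hc)
    (hG_mem_diagonal RGDTwE6.hp.inList (simple_lt RGDTwE6.hp.inList (lt_rank RGDTwE6.hp j')) hcq)) (hmem c) _
    (chi_mul RGDTwE6.hp.inList (hG_chi RGDTwE6.hp j hc) (hG_chi RGDTwE6.hp j' hcq))
  have key : ∀ r : ℕ, c ^ (chevE6.cartan j r + q * chevE6.cartan j' r) =
      c ^ chevE6.cartan j r * (c ^ q) ^ chevE6.cartan j' r := by
    intro r
    rw [zpow_add₀ hc, zpow_mul, zpow_natCast]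
  rw [key, key]
  exact h1

include hqq in
/-- the fixed nodes -/
theorem single_dvd {j : Fin 6} (hmem : ∀ c : K, c ^ q = c → hG RGDTwE6.hp.inList (chevE6.simple j) c ∈ twistedE6 K q)
    {s s' : ℕ}
    (hχ : ∀ (t : GL chevE6.Idx K), t ∈ chevE6.diagonalSubgroup K → t ∈ twistedE6 K q →
      ∀ χ : ℕ → K, (∀ s < chevE6.nroots, ∀ c : K, t * xG RGDTwE6.hp.inList s c * t⁻¹ =
        xG RGDTwE6.hp.inList s (χ s * c)) → χ s' = χ s) :
    ((Fintype.card K : ℤ) - 1) ∣ ((q : ℤ) + 1) * chevE6.cartan j s' - ((q : ℤ) + 1) * chevE6.cartan j s := by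
  refine dvd_of_zpow fun c hc => ?_
  have hcq : c ^ (q + 1) ≠ 0 := pow_ne_zero _ hc
  have h0 : (c ^ (q + 1)) ^ q = c ^ (q + 1) := by
    rw [pow_succ, mul_pow, hqq, mul_comm]
  have h1 := hχ _
    (hG_mem_diagonal RGDTwE6.hp.inList (simple_lt RGDTwE6.hp.inList (lt_rank RGDTwE6.hp j)) hcq) (hmem _ h0) _
    (hG_chi RGDTwE6.hp j hcq)
  have key : ∀ r : ℕ, c ^ (((q : ℤ) + 1) * chevE6.cartan j r) = (c ^ (q + 1)) ^ chevE6.cartan j r := by
    intro r
    rw [zpow_mul]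
    congr 1
    rw [← zpow_natCast]
    push_cast
    rfl
  rw [key, key]
  exact h1

include hcore in
/-- **`²E₆(q)`, `q ≥ 3`** -/
theorem dis_E6 (hK : Fintype.card K = q ^ 2) (hq : 3 ≤ q) {a b : ↥(twistedE6 K q)} (hab : Good p a b) {w : W}
    (hw : fw cs cs' w ∈ Dis (Bl (RGDFold.rgd cs RGDTwE6.isCartan RGDTwE6.foldData (RGDTwE6.foldGrp hφ hqq) p)
      hgen cs' hcs) a b) : w = 1 := by
  have F : Cox cs := inferInstance
  obtain ⟨u, J, h1, h2, h3⟩ := exists_J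
    (RGDFold.rgd cs RGDTwE6.isCartan RGDTwE6.foldData (RGDTwE6.foldGrp hφ hqq) p) hgen cs' hcs hcore hab hw
  obtain ⟨s0, s1, s2, s3, s4, s5⟩ := simple_E6
  obtain ⟨t1, ⟨t2, t2'⟩, t3, ⟨t4, t4'⟩⟩ := tab_short
  obtain ⟨l1, l2, l3, l4, l5, l6, l7⟩ := tab_long
  obtain ⟨a00, a01, a02, a03, a10, a11, a12, a13⟩ := chk
  obtain ⟨r0, r1, r2, r3⟩ := sr4
  have hn : chevE6.nroots = 72 := by decide +kernel
  have hcard : ((Fintype.card K : ℤ) - 1) = (q : ℤ) ^ 2 - 1 := by rw [hK]; push_cast; rfl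
  have hq' : (3 : ℤ) ≤ q := by exact_mod_cast hq
  have hno : ∀ x : ℤ, 0 < x → x ≤ (q : ℤ) + 1 → ¬ ((q : ℤ) ^ 2 - 1) ∣ x := by
    intro x hx hx2 hd
    have h4 := Int.le_of_dvd hx hd
    nlinarith
  have m05 : ∀ c : K, hG RGDTwE6.hp.inList (chevE6.simple (0 : Fin 6)) c *
      hG RGDTwE6.hp.inList (chevE6.simple (5 : Fin 6)) (c ^ q) ∈ twistedE6 K q := by
    intro c
    have := hG_pair hφ pair3 c
    change hG RGDTwE6.hp.inList (chevE6.simple 0) c * hG RGDTwE6.hp.inList (chevE6.simple 5) (c ^ q) ∈ _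
    rw [s0, s5]
    exact this
  have m24 : ∀ c : K, hG RGDTwE6.hp.inList (chevE6.simple (2 : Fin 6)) c *
      hG RGDTwE6.hp.inList (chevE6.simple (4 : Fin 6)) (c ^ q) ∈ twistedE6 K q := by
    intro c
    have := hG_pair hφ pair2 c
    change hG RGDTwE6.hp.inList (chevE6.simple 2) c * hG RGDTwE6.hp.inList (chevE6.simple 4) (c ^ q) ∈ _
    rw [s2, s4]
    exact this
  have m1 : ∀ c : K, c ^ q = c → hG RGDTwE6.hp.inList (chevE6.simple (1 : Fin 6)) c ∈ twistedE6 K q := by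
    intro c hc
    have := hG_single hφ single0 hc
    change hG RGDTwE6.hp.inList (chevE6.simple 1) c ∈ _
    rw [s1]
    exact this
  have m3 : ∀ c : K, c ^ q = c → hG RGDTwE6.hp.inList (chevE6.simple (3 : Fin 6)) c ∈ twistedE6 K q := by
    intro c hc
    have := hG_single hφ single1 hc
    change hG RGDTwE6.hp.inList (chevE6.simple 3) c ∈ _
    rw [s3]
    exact this
  -- the short nodes
  have n2 : (2 : Fin 4) ∉ J := by
    intro hJ
    obtain ⟨s', hs', hV, hχ⟩ := fold_chi RGDTwE6.foldData (RGDTwE6.foldGrp hφ hqq) hgen cs' hcs hcore hab h2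
      (s := 42) (by rw [hn]; norm_num)
    rw [l4, (h3 2 hJ).2] at hV
    have h4 := pair_dvd (j := 0) (j' := 5) m05 hχ
    rw [hcard] at h4
    change _ ∣ (chevE6.cartan 0 s' + q * chevE6.cartan 5 s') - (chevE6.cartan 0 42 + q * chevE6.cartan 5 42) at h4
    rw [t2, t2'] at h4
    rcases t1 s' ((RGDTwE6.cls' 2 s' hs').1 hV) with ⟨e1, e2⟩ | ⟨e1, e2⟩
    · rw [e1, e2] at h4
      exact hno _ (by norm_num) (by linarith) h4
    · rw [e1, e2] at h4
      exact hno _ (by linarith) (by linarith) h4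
  have n3 : (3 : Fin 4) ∉ J := by
    intro hJ
    obtain ⟨s', hs', hV, hχ⟩ := fold_chi RGDTwE6.foldData (RGDTwE6.foldGrp hφ hqq) hgen cs' hcs hcore hab h2
      (s := 56) (by rw [hn]; norm_num)
    rw [l5, (h3 3 hJ).2] at hV
    have h4 := pair_dvd (j := 2) (j' := 4) m24 hχ
    rw [hcard] at h4
    change _ ∣ (chevE6.cartan 2 s' + q * chevE6.cartan 4 s') - (chevE6.cartan 2 56 + q * chevE6.cartan 4 56) at h4
    rw [t4, t4'] at h4
    rcases t3 s' ((RGDTwE6.cls' 3 s' hs').1 hV) with ⟨e1, e2⟩ | ⟨e1, e2⟩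
    · rw [e1, e2] at h4
      exact hno _ (by norm_num) (by linarith) h4
    · rw [e1, e2] at h4
      exact hno _ (by linarith) (by linarith) h4
  by_cases h0J : (0 : Fin 4) ∈ J
  · exfalso
    by_cases h1J : (1 : Fin 4) ∈ J
    · set y := rep cs RGDTwE6.isCartan (wJ cs J) (sr 2) with hy
      have e2 : y 2 = 1 := by rw [hy, rep_off (h := RGDTwE6.isCartan) (F.wJ_mem J) _ n2, sr_self]
      have e0 := pairing_neg (h := RGDTwE6.isCartan) (h3 0 h0J).1 (h3 0 h0J).2 (sr 2)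
      have e1 := pairing_neg (h := RGDTwE6.isCartan) (h3 1 h1J).1 (h3 1 h1J).2 (sr 2)
      rw [sum4, sum4, a00, a01, a02, a03, r2] at e0
      rw [sum4, sum4, a10, a11, a12, a13, r2] at e1
      simp at e0 e1
      rw [← r2, ← hy] at e0 e1
      omega
    · set y := rep cs RGDTwE6.isCartan (wJ cs J) (sr 1) with hy
      have e1 : y 1 = 1 := by rw [hy, rep_off (h := RGDTwE6.isCartan) (F.wJ_mem J) _ h1J, sr_self]
      have e2 : y 2 = 0 := by
        rw [hy, rep_off (h := RGDTwE6.isCartan) (F.wJ_mem J) _ n2, r1]; rfl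
      have e3 : y 3 = 0 := by
        rw [hy, rep_off (h := RGDTwE6.isCartan) (F.wJ_mem J) _ n3, r1]; rfl
      have e0 := pairing_neg (h := RGDTwE6.isCartan) (h3 0 h0J).1 (h3 0 h0J).2 (sr 1)
      rw [sum4, sum4, a00, a01, a02, a03, r1] at e0
      simp at e0
      rw [← r1, ← hy] at e0
      have e4 : y 0 = 1 := by omega
      have e5 : y = ![1, 1, 0, 0] := by
        funext i
        fin_cases i
        · exact e4
        · exact e1
        · exact e2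
        · exact e3
      obtain ⟨s', hs', hV, hχ⟩ := fold_chi RGDTwE6.foldData (RGDTwE6.foldGrp hφ hqq) hgen cs' hcs hcore hab h2
        (s := 39) (by rw [hn]; norm_num)
      rw [l7, ← hy, e5] at hV
      have h4 := single_dvd hqq (j := 3) m3 hχ
      rw [hcard] at h4
      change _ ∣ ((q : ℤ) + 1) * chevE6.cartan 3 s' - ((q : ℤ) + 1) * chevE6.cartan 3 39 at h4
      rw [(l1 s' (by rw [← hn]; exact hs') hV).2, l3] at h4
      exact hno ((q : ℤ) + 1) (by linarith) le_rfl ((dvd_neg.2 h4).trans (by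
        have : -(((q : ℤ) + 1) * 1 - ((q : ℤ) + 1) * 2) = (q : ℤ) + 1 := by ring
        rw [this]))
  · by_cases h1J : (1 : Fin 4) ∈ J
    · exfalso
      set y := rep cs RGDTwE6.isCartan (wJ cs J) (sr 0) with hy
      have e1 : y 0 = 1 := by rw [hy, rep_off (h := RGDTwE6.isCartan) (F.wJ_mem J) _ h0J, sr_self]
      have e2 : y 2 = 0 := by
        rw [hy, rep_off (h := RGDTwE6.isCartan) (F.wJ_mem J) _ n2, r0]; rfl
      have e3 : y 3 = 0 := by
        rw [hy, rep_off (h := RGDTwE6.isCartan) (F.wJ_mem J) _ n3, r0]; rfl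
      have e0 := pairing_neg (h := RGDTwE6.isCartan) (h3 1 h1J).1 (h3 1 h1J).2 (sr 0)
      rw [sum4, sum4, a10, a11, a12, a13, r0] at e0
      simp at e0
      rw [← r0, ← hy] at e0
      have e4 : y 1 = 1 := by omega
      have e5 : y = ![1, 1, 0, 0] := by
        funext i
        fin_cases i
        · exact e1
        · exact e4
        · exact e2
        · exact e3
      obtain ⟨s', hs', hV, hχ⟩ := fold_chi RGDTwE6.foldData (RGDTwE6.foldGrp hφ hqq) hgen cs' hcs hcore hab h2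
        (s := 46) (by rw [hn]; norm_num)
      rw [l6, ← hy, e5] at hV
      have h4 := single_dvd hqq (j := 1) m1 hχ
      rw [hcard] at h4
      change _ ∣ ((q : ℤ) + 1) * chevE6.cartan 1 s' - ((q : ℤ) + 1) * chevE6.cartan 1 46 at h4
      rw [(l1 s' (by rw [← hn]; exact hs') hV).1, l2] at h4
      exact hno ((q : ℤ) + 1) (by linarith) le_rfl ((dvd_neg.2 h4).trans (by
        have : -(((q : ℤ) + 1) * 1 - ((q : ℤ) + 1) * 2) = (q : ℤ) + 1 := by ring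
        rw [this]))
    · have hJ : J = ∅ := by
        ext i
        fin_cases i
        · exact ⟨fun h => absurd h h0J, fun h => h.elim⟩
        · exact ⟨fun h => absurd h h1J, fun h => h.elim⟩
        · exact ⟨fun h => absurd h n2, fun h => h.elim⟩
        · exact ⟨fun h => absurd h n3, fun h => h.elim⟩
      subst hJ
      exact eq_one_of_conj_wJ_empty h1

end Six

end Cfsg.Agent.H82.AH
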