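import Cfsg.Agent.H82.AH.Cmp

/-!
# S2451 (helper82): the common displacements for the untwisted groups

* `eq_one_of_tab` : `q ≥ 4`, every type with a table: `Dis ⊆ {1}`;
* `dis_F4`, `dis_G2` : `q ≥ 4` or `w = 1` or `w = w₀` (`q = 3`).
-/

set_option autoImplicit false
set_option linter.unusedSectionVars false

open scoped Pointwise

namespace Cfsg.Agent.H82.AH

open CoxeterSystem Cfsg.Agent.ChevalleyStructure.CoxeterGeom Cfsg.Agent.Tits.Roots Cfsg.Agent.Tits.Core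
  Cfsg.Agent.Tits.RootComb Cfsg.Agent.Nodes.Comb Cfsg.Agent.Nodes.Reps Cfsg.Agent.Nodes.BNOf Cfsg.Agent.Nodes.BNOf.RGD
  Cfsg.Agent.FixBN Cfsg.Agent.Tits.OfBN Cfsg.Agent.Tits.OppRes Cfsg.Agent.LieExceptional.BNPairCore
  Cfsg.Agent.OddHalf.Table.AutBldg Cfsg.Agent.OddHalf.Table.AutRGD Cfsg.Agent.OddHalf.Table.AutNorm
  Cfsg.Agent.Tits Cfsg.Agent.Nodes.RGDLib Cfsg.Agent.UGT.U2.FOne
open Cfsg.Agent.Tits.Core.Bldg Cfsg.Agent.H197.Cls
open Cfsg.Lie Cfsg.Agent.ChevalleyStructure Cfsg.Agent.ChevalleyStructure.Elts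
  Cfsg.Agent.ChevalleyStructure.RootVec Cfsg.Agent.ChevalleyStructure.RootVecTab
  Cfsg.Agent.ChevalleyStructure.NPerm Cfsg.Agent.ChevalleyStructure.CoxeterGeomTypes
  Cfsg.Agent.Nodes.RGDChev Cfsg.Agent.Nodes.RGDFold

universe u

section

variable {I W : Type*} [Group W] {M : CoxeterMatrix I} {cs : CoxeterSystem M W}

theorem comm_all {w : W} (h : ∀ i, cs.simple i * w = w * cs.simple i) (u : W) : u * w = w * u := by
  induction u using cs.simple_induction_left with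
  | one => rw [one_mul, mul_one]
  | mul_simple_left v i ih => rw [mul_assoc, ih, ← mul_assoc, h, mul_assoc]

theorem wJ_empty [F : Cox cs] : wJ cs (∅ : Set I) = 1 := by
  have h4 := F.wJ_mem (∅ : Set I)
  rw [WJ, Set.image_empty, Subgroup.closure_empty, Subgroup.mem_bot] at h4
  exact h4

theorem eq_one_of_conj_wJ_empty [F : Cox cs] {u v : W} (h : u * v * u⁻¹ = wJ cs (∅ : Set I)) : v = 1 := by
  rw [wJ_empty, mul_inv_eq_one] at h
  exact mul_left_cancel (h.trans (mul_one u).symm)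

end

section Untw

variable {D : ChevalleyDatum} {l : ℕ} {M : CoxeterMatrix (Fin l)} (hp : IsType D l M) {K : Type u} [Field K]
  [Fintype K] {W : Type*} [Group W] [Finite W] {cs : CoxeterSystem M W} {p : ℕ} [Fact p.Prime] [CharP K p]
  (hgen : B cs hp.isCartan ((D.diagonalSubgroup K).subgroupOf (D.group K))
      (fun x => (XV D l K x).subgroupOf (D.group K)) ⊔ NN cs (rgd (K := K) hp cs p).nsys = ⊤)
  [hN : ((((rgd (K := K) hp cs p).bnPair hgen).B ⊓ ((rgd (K := K) hp cs p).bnPair hgen).N).subgroupOf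
    ((rgd (K := K) hp cs p).bnPair hgen).N).Normal]
  (cs' : CoxeterSystem M (WP ((rgd (K := K) hp cs p).bnPair hgen)))
  (hcs : ∀ i, cs'.simple i = QuotientGroup.mk
    (⟨(eS (rgd (K := K) hp cs p) hgen i : ↥(D.group K)), ((rgd (K := K) hp cs p).bnPair hgen).subset
      (eS (rgd (K := K) hp cs p) hgen i).2⟩ : ((rgd (K := K) hp cs p).bnPair hgen).N))
  (hcore : (B cs hp.isCartan ((D.diagonalSubgroup K).subgroupOf (D.group K))
      (fun x => (XV D l K x).subgroupOf (D.group K))).normalCore = ⊥)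

include hcore in
/-- `q ≥ 4` -/
theorem eq_one_of_tab (E : Fin l → Fin l → ℤ)
    (hE : ∀ i : Fin l, (∑ j : Fin l, E i j * (D.cartan j (D.neg (D.simple i)) - D.cartan j (D.simple i))) = 2)
    (hq : 3 < Fintype.card K) {a b : ↥(D.group K)} (hab : Good p a b) {w : W}
    (hw : fw cs cs' w ∈ Dis (Bl (rgd (K := K) hp cs p) hgen cs' hcs) a b) : w = 1 := by
  have F : Cox cs := inferInstance
  obtain ⟨u, J, h1, h2, h3⟩ := exists_J (rgd (K := K) hp cs p) hgen cs' hcs hcore hab hw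
  rcases J.eq_empty_or_nonempty with rfl | ⟨i, hi⟩
  · exact eq_one_of_conj_wJ_empty h1
  · exfalso
    have hs := simple_lt hp.inList (lt_rank hp i)
    have key : ((Fintype.card K : ℤ) - 1) ∣ 2 := by
      rw [← hE i]
      refine Finset.dvd_sum fun j _ => Dvd.dvd.mul_left ?_ _
      refine cartan_dvd hp hgen cs' hcs hcore hab h2 hs (neg_lt hp.inList hs) ?_ j
      rw [vec_neg hp hs, vec_simple hp, (h3 i hi).2]
    have h4 := Int.le_of_dvd (by norm_num) key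
    have h5 : (3 : ℤ) < Fintype.card K := by exact_mod_cast hq
    omega

end Untw

/-! ### `F₄` -/

/-- the table for `F₄` -/
def tabF4 : Fin 4 → Fin 4 → ℤ := ![![0, 1, 0, 0], ![1, 0, 0, 0], ![0, 0, 0, 1], ![0, 0, 1, 0]]

theorem tabF4_ok : ∀ i : Fin 4, (∑ j : Fin 4, tabF4 i j *
    (chevF4.cartan j (chevF4.neg (chevF4.simple i)) - chevF4.cartan j (chevF4.simple i))) = 2 := by decide +kernel

/-- some vectors of short roots -/
theorem short_F4 : ∀ v : Fin 4 → ℤ, v ∈ ([![1, 0, 0, 0], ![0, 1, 0, 0], ![1, 1, 0, 0], ![0, 1, 1, 0], ![1, 1, 1, 0],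
    ![0, 1, 1, 1], ![1, 1, 1, 1]] : List (Fin 4 → ℤ)) → ∃ r < 48, vec chevF4 4 r = v ∧ ∀ s < 48,
    (∀ j < 4, (chevF4.cartan j s - chevF4.cartan j r) % 2 = 0) → s = r ∨ s = chevF4.neg r := by
  have key : ∀ v ∈ ([![1, 0, 0, 0], ![0, 1, 0, 0], ![1, 1, 0, 0], ![0, 1, 1, 0], ![1, 1, 1, 0],
    ![0, 1, 1, 1], ![1, 1, 1, 1]] : List (Fin 4 → ℤ)), ∃ r < 48, vec chevF4 4 r = v ∧ ∀ s < 48,
    (∀ j < 4, (chevF4.cartan j s - chevF4.cartan j r) % 2 = 0) → s = r ∨ s = chevF4.neg r := by decide +kernel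
  exact fun v hv => key v hv

section F4

variable (hp : IsType chevF4 4 CoxeterMatrix.F₄) {K : Type u} [Field K]
  [Fintype K] {W : Type*} [Group W] [Finite W] {cs : CoxeterSystem CoxeterMatrix.F₄ W} {p : ℕ} [Fact p.Prime]
  [CharP K p]
  (hgen : B cs hp.isCartan ((chevF4.diagonalSubgroup K).subgroupOf (chevF4.group K))
      (fun x => (XV chevF4 4 K x).subgroupOf (chevF4.group K)) ⊔ NN cs (rgd (K := K) hp cs p).nsys = ⊤)
  [hN : ((((rgd (K := K) hp cs p).bnPair hgen).B ⊓ ((rgd (K := K) hp cs p).bnPair hgen).N).subgroupOf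
    ((rgd (K := K) hp cs p).bnPair hgen).N).Normal]
  (cs' : CoxeterSystem CoxeterMatrix.F₄ (WP ((rgd (K := K) hp cs p).bnPair hgen)))
  (hcs : ∀ i, cs'.simple i = QuotientGroup.mk
    (⟨(eS (rgd (K := K) hp cs p) hgen i : ↥(chevF4.group K)), ((rgd (K := K) hp cs p).bnPair hgen).subset
      (eS (rgd (K := K) hp cs p) hgen i).2⟩ : ((rgd (K := K) hp cs p).bnPair hgen).N))
  (hcore : (B cs hp.isCartan ((chevF4.diagonalSubgroup K).subgroupOf (chevF4.group K))
      (fun x => (XV chevF4 4 K x).subgroupOf (chevF4.group K))).normalCore = ⊥)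

include hcore in
/-- `F₄(q)`, `q ≥ 3` -/
theorem dis_F4 (hq : 3 ≤ Fintype.card K) {a b : ↥(chevF4.group K)} (hab : Good p a b) {w : W}
    (hw : fw cs cs' w ∈ Dis (Bl (rgd (K := K) hp cs p) hgen cs' hcs) a b) : w = 1 ∨ w = w0 cs := by
  rcases hq.lt_or_eq with hq | hq
  · left
    exact eq_one_of_tab hp hgen cs' hcs hcore tabF4 tabF4_ok hq hab hw
  have hpm : ∀ v : Fin 4 → ℤ, v ∈ ([![1, 0, 0, 0], ![0, 1, 0, 0], ![1, 1, 0, 0], ![0, 1, 1, 0], ![1, 1, 1, 0],
      ![0, 1, 1, 1], ![1, 1, 1, 1]] : List (Fin 4 → ℤ)) → ∃ e : ℤ, (e = 1 ∨ e = -1) ∧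
        rep cs hp.isCartan w v = e • v := by
    intro v hv
    obtain ⟨r, hr, hrv, hr2⟩ := short_F4 v hv
    have hr' : r < chevF4.nroots := hr
    obtain ⟨s, hs, hsv⟩ := (isRoot_iff hp cs _).1 ((isRoot_vec hp cs hr').act w)
    have h1 := hr2 s hs (fun j hj => by
      have h2 := cartan_dvd hp hgen cs' hcs hcore hab hw hr' hs hsv ⟨j, hj⟩
      rw [← hq] at h2
      exact Int.emod_eq_zero_of_dvd h2)
    rcases h1 with rfl | rfl
    · exact ⟨1, Or.inl rfl, by rw [← hrv, ← hsv, one_smul]⟩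
    · exact ⟨-1, Or.inr rfl, by rw [← hrv, ← hsv, vec_neg hp hr', neg_smul, one_smul]⟩
  obtain ⟨e0, he0, h0⟩ := hpm ![1, 0, 0, 0] (by simp)
  obtain ⟨e1, he1, h1⟩ := hpm ![0, 1, 0, 0] (by simp)
  obtain ⟨e2, he2, h2⟩ := hpm ![1, 1, 0, 0] (by simp)
  obtain ⟨e3, he3, h3⟩ := hpm ![0, 1, 1, 0] (by simp)
  obtain ⟨e4, he4, h4⟩ := hpm ![1, 1, 1, 0] (by simp)
  obtain ⟨e5, he5, h5⟩ := hpm ![0, 1, 1, 1] (by simp)
  obtain ⟨e6, he6, h6⟩ := hpm ![1, 1, 1, 1] (by simp)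
  have a2 : (![1, 1, 0, 0] : Fin 4 → ℤ) = ![1, 0, 0, 0] + ![0, 1, 0, 0] := by decide
  have a4 : (![1, 1, 1, 0] : Fin 4 → ℤ) = ![1, 0, 0, 0] + ![0, 1, 1, 0] := by decide
  have a6 : (![1, 1, 1, 1] : Fin 4 → ℤ) = ![1, 0, 0, 0] + ![0, 1, 1, 1] := by decide
  have a3 : (![0, 1, 1, 0] : Fin 4 → ℤ) = ![0, 1, 0, 0] + ![0, 0, 1, 0] := by decide
  have a5 : (![0, 1, 1, 1] : Fin 4 → ℤ) = ![0, 1, 1, 0] + ![0, 0, 0, 1] := by decide
  have b2 : e2 • (![1, 1, 0, 0] : Fin 4 → ℤ) = e0 • ![1, 0, 0, 0] + e1 • ![0, 1, 0, 0] := by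
    rw [← h2, ← h0, ← h1, ← map_add, ← a2]
  have b4 : e4 • (![1, 1, 1, 0] : Fin 4 → ℤ) = e0 • ![1, 0, 0, 0] + e3 • ![0, 1, 1, 0] := by
    rw [← h4, ← h0, ← h3, ← map_add, ← a4]
  have b6 : e6 • (![1, 1, 1, 1] : Fin 4 → ℤ) = e0 • ![1, 0, 0, 0] + e5 • ![0, 1, 1, 1] := by
    rw [← h6, ← h0, ← h5, ← map_add, ← a6]
  have c20 := congrFun b2 0
  have c21 := congrFun b2 1
  have c40 := congrFun b4 0
  have c41 := congrFun b4 1
  have c60 := congrFun b6 0
  have c61 := congrFun b6 1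
  simp at c20 c21 c40 c41 c60 c61
  have f1 : e1 = e0 := by rw [← c21, c20]
  have f3 : e3 = e0 := by rw [← c41, c40]
  have f5 : e5 = e0 := by rw [← c61, c60]
  subst f1 f3 f5
  have k2 : rep cs hp.isCartan w ![0, 0, 1, 0] = e5 • ![0, 0, 1, 0] := by
    have h7 : rep cs hp.isCartan w ![0, 1, 1, 0] = rep cs hp.isCartan w ![0, 1, 0, 0] +
        rep cs hp.isCartan w ![0, 0, 1, 0] := by rw [← map_add, ← a3]
    rw [h3, h1, a3, smul_add] at h7
    exact (add_left_cancel h7).symm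
  have k3 : rep cs hp.isCartan w ![0, 0, 0, 1] = e5 • ![0, 0, 0, 1] := by
    have h7 : rep cs hp.isCartan w ![0, 1, 1, 1] = rep cs hp.isCartan w ![0, 1, 1, 0] +
        rep cs hp.isCartan w ![0, 0, 0, 1] := by rw [← map_add, ← a5]
    rw [h5, h3, a5, smul_add] at h7
    exact (add_left_cancel h7).symm
  have s0 : (sr 0 : Fin 4 → ℤ) = ![1, 0, 0, 0] := by decide
  have s1 : (sr 1 : Fin 4 → ℤ) = ![0, 1, 0, 0] := by decide
  have s2 : (sr 2 : Fin 4 → ℤ) = ![0, 0, 1, 0] := by decide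
  have s3 : (sr 3 : Fin 4 → ℤ) = ![0, 0, 0, 1] := by decide
  have hall : ∀ i : Fin 4, rep cs hp.isCartan w (sr i) = e5 • sr i := by
    intro i
    fin_cases i
    · show rep cs hp.isCartan w (sr 0) = e5 • sr 0
      rw [s0, h0]
    · show rep cs hp.isCartan w (sr 1) = e5 • sr 1
      rw [s1, h1]
    · show rep cs hp.isCartan w (sr 2) = e5 • sr 2
      rw [s2, k2]
    · show rep cs hp.isCartan w (sr 3) = e5 • sr 3
      rw [s3, k3]
  rcases he5 with rfl | rfl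
  · left
    exact eq_one_of_pos (h := hp.isCartan) fun i => by rw [hall, one_smul]
  · right
    exact eq_w0_of_neg (h := hp.isCartan) fun i => by rw [hall, neg_smul, one_smul]

end F4

/-! ### `G₂` -/

/-- the table for `G₂` -/
def tabG2 : Fin 2 → Fin 2 → ℤ := ![![0, 1], ![1, 1]]

theorem tabG2_ok : ∀ i : Fin 2, (∑ j : Fin 2, tabG2 i j *
    (chevG2.cartan j (chevG2.neg (chevG2.simple i)) - chevG2.cartan j (chevG2.simple i))) = 2 := by decide +kernel

theorem cartan_G2 : cartanOf chevG2 2 0 0 = 2 ∧ cartanOf chevG2 2 0 1 = -3 ∧ cartanOf chevG2 2 1 0 = -1 ∧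
    cartanOf chevG2 2 1 1 = 2 := by decide +kernel

theorem tabG2_odd : (∃ r < 12, vec chevG2 2 r = ![3, 1] ∧
    ¬ (2 : ℤ) ∣ chevG2.cartan 1 r - chevG2.cartan 1 (chevG2.simple 1)) ∧
    (∃ r < 12, vec chevG2 2 r = ![1, 1] ∧
    ¬ (2 : ℤ) ∣ chevG2.cartan 0 r - chevG2.cartan 0 (chevG2.simple 0)) := by decide +kernel

section G2

variable (hp : IsType chevG2 2 CoxeterMatrix.G₂) {K : Type u} [Field K]
  [Fintype K] {W : Type*} [Group W] [Finite W] {cs : CoxeterSystem CoxeterMatrix.G₂ W} {p : ℕ} [Fact p.Prime]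
  [CharP K p]
  (hgen : B cs hp.isCartan ((chevG2.diagonalSubgroup K).subgroupOf (chevG2.group K))
      (fun x => (XV chevG2 2 K x).subgroupOf (chevG2.group K)) ⊔ NN cs (rgd (K := K) hp cs p).nsys = ⊤)
  [hN : ((((rgd (K := K) hp cs p).bnPair hgen).B ⊓ ((rgd (K := K) hp cs p).bnPair hgen).N).subgroupOf
    ((rgd (K := K) hp cs p).bnPair hgen).N).Normal]
  (cs' : CoxeterSystem CoxeterMatrix.G₂ (WP ((rgd (K := K) hp cs p).bnPair hgen)))
  (hcs : ∀ i, cs'.simple i = QuotientGroup.mk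
    (⟨(eS (rgd (K := K) hp cs p) hgen i : ↥(chevG2.group K)), ((rgd (K := K) hp cs p).bnPair hgen).subset
      (eS (rgd (K := K) hp cs p) hgen i).2⟩ : ((rgd (K := K) hp cs p).bnPair hgen).N))
  (hcore : (B cs hp.isCartan ((chevG2.diagonalSubgroup K).subgroupOf (chevG2.group K))
      (fun x => (XV chevG2 2 K x).subgroupOf (chevG2.group K))).normalCore = ⊥)

include hcore in
/-- `G₂(q)`, `q ≥ 3` -/
theorem dis_G2 (hq : 3 ≤ Fintype.card K) {a b : ↥(chevG2.group K)} (hab : Good p a b) {w : W}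
    (hw : fw cs cs' w ∈ Dis (Bl (rgd (K := K) hp cs p) hgen cs' hcs) a b) : w = 1 ∨ w = w0 cs := by
  rcases hq.lt_or_eq with hq | hq
  · left
    exact eq_one_of_tab hp hgen cs' hcs hcore tabG2 tabG2_ok hq hab hw
  have F : Cox cs := inferInstance
  obtain ⟨u, J, h1, h2, h3⟩ := exists_J (rgd (K := K) hp cs p) hgen cs' hcs hcore hab hw
  obtain ⟨c00, c01, c10, c11⟩ := cartan_G2
  have hdvd : ∀ (s s' : ℕ), s < 12 → s' < 12 → vec chevG2 2 s' = rep cs hp.isCartan (wJ cs J) (vec chevG2 2 s) →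
      ∀ j : Fin 2, (2 : ℤ) ∣ chevG2.cartan j s' - chevG2.cartan j s := by
    intro s s' hs hs' hss j
    have h4 := cartan_dvd hp hgen cs' hcs hcore hab h2 hs hs' hss j
    rw [← hq] at h4
    exact h4
  obtain ⟨⟨r, hr, hrv, hr2⟩, ⟨r', hr', hrv', hr2'⟩⟩ := tabG2_odd
  have hpr : ∀ (i : Fin 2) (x : Fin 2 → ℤ), pairing (cartanOf chevG2 2) i x =
      cartanOf chevG2 2 i 0 * x 0 + cartanOf chevG2 2 i 1 * x 1 := by
    intro i x
    unfold pairing
    rw [Fin.sum_univ_two]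
  have hs0 : chevG2.simple 0 < 12 := simple_lt hp.inList (lt_rank hp (0 : Fin 2))
  have hs1 : chevG2.simple 1 < 12 := simple_lt hp.inList (lt_rank hp (1 : Fin 2))
  have v0 : vec chevG2 2 (chevG2.simple 0) = sr 0 := vec_simple hp (0 : Fin 2)
  have v1 : vec chevG2 2 (chevG2.simple 1) = sr 1 := vec_simple hp (1 : Fin 2)
  have w01 : (sr 0 : Fin 2 → ℤ) 1 = 0 := by decide
  have w10 : (sr 1 : Fin 2 → ℤ) 0 = 0 := by decide
  by_cases h0 : (0 : Fin 2) ∈ J
  · by_cases h1' : (1 : Fin 2) ∈ J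
    · -- `J` is everything
      right
      have hJ : J = Set.univ := by
        ext i
        fin_cases i
        · exact ⟨fun _ => trivial, fun _ => h0⟩
        · exact ⟨fun _ => trivial, fun _ => h1'⟩
      subst hJ
      have h5 := comm_all (cs := cs) (w := wJ cs Set.univ) (fun i => (h3 i (Set.mem_univ i)).1) u
      have h6 : w = u⁻¹ * (wJ cs Set.univ * u) := by rw [← h1]; group
      rw [h6, ← h5, inv_mul_cancel_left]
      rfl
    · exfalso
      set y := rep cs hp.isCartan (wJ cs J) (sr 1) with hy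
      have e1 : y 1 = 1 := by
        rw [hy, rep_off (h := hp.isCartan) (F.wJ_mem J) _ h1', sr_self]
      have e2 := pairing_neg (h := hp.isCartan) (h3 0 h0).1 (h3 0 h0).2 (sr 1)
      rw [hpr, hpr, c00, c01, w10, sr_self] at e2
      have e3 : y 0 = 3 := by
        change 2 * y 0 + -3 * y 1 = _ at e2
        rw [e1] at e2
        omega
      have e4 : y = ![3, 1] := by
        funext i
        fin_cases i
        · exact e3
        · exact e1
      refine hr2 (hdvd _ r hs1 hr ?_ 1)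
      rw [hrv, v1, ← e4]
  · by_cases h1' : (1 : Fin 2) ∈ J
    · exfalso
      set y := rep cs hp.isCartan (wJ cs J) (sr 0) with hy
      have e1 : y 0 = 1 := by
        rw [hy, rep_off (h := hp.isCartan) (F.wJ_mem J) _ h0, sr_self]
      have e2 := pairing_neg (h := hp.isCartan) (h3 1 h1').1 (h3 1 h1').2 (sr 0)
      rw [hpr, hpr, c10, c11, w01, sr_self] at e2
      have e3 : y 1 = 1 := by
        change -1 * y 0 + 2 * y 1 = _ at e2
        rw [e1] at e2
        omega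
      have e4 : y = ![1, 1] := by
        funext i
        fin_cases i
        · exact e1
        · exact e3
      refine hr2' (hdvd _ r' hs0 hr' ?_ 0)
      rw [hrv', v0, ← e4]
    · left
      have hJ : J = ∅ := by
        ext i
        fin_cases i
        · exact ⟨fun h => absurd h h0, fun h => h.elim⟩
        · exact ⟨fun h => absurd h h1', fun h => h.elim⟩
      subst hJ
      exact eq_one_of_conj_wJ_empty h1

end G2

end Cfsg.Agent.H82.AH
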