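import Cfsg.Agent.H82.AH.DisRefl
import Cfsg.Agent.H82.AH.DisD4
import Cfsg.Agent.OddHalf.NI.FTwo.IdentRgd
import Cfsg.Agent.H568.OwnCharChev
import Cfsg.Agent.H568.OwnCharTw
import Cfsg.Agent.H934.RowTwD4

/-!
# S2451 (helper82): the torus rows in building language

`HasDis p G M qs Q` : `G` acts faithfully and strongly transitively on a finite thick building of type `M` with parameters
`qs`, with a system of Sylow `p`-groups, and for all `a, b` such that all products of `a` and a conjugate of `b` are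
`p`-elements, the common displacements satisfy `Q`.
-/

set_option autoImplicit false
set_option linter.unusedSectionVars false

open scoped Pointwise

namespace Cfsg.Agent.H82.AH

open CoxeterSystem Cfsg.Agent.ChevalleyStructure.CoxeterGeom Cfsg.Agent.Tits.Roots Cfsg.Agent.Tits.Core
  Cfsg.Agent.Tits.RootComb Cfsg.Agent.Nodes.Comb Cfsg.Agent.Nodes.Reps Cfsg.Agent.Nodes.BNOf Cfsg.Agent.Nodes.BNOf.RGD
  Cfsg.Agent.FixBN Cfsg.Agent.Tits.OfBN Cfsg.Agent.Tits.OppRes Cfsg.Agent.LieExceptional.BNPairCore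
  Cfsg.Agent.OddHalf.Table.AutBldg Cfsg.Agent.OddHalf.Table.AutRGD Cfsg.Agent.OddHalf.Table.AutNorm
  Cfsg.Agent.Tits Cfsg.Agent.Nodes.RGDLib Cfsg.Agent.UGT.U2.FOne
open Cfsg.Agent.Tits.Core.Bldg Cfsg.Agent.H197.Cls
open Cfsg.Lie Cfsg.Agent.ChevalleyStructure Cfsg.Agent.ChevalleyStructure.Elts
  Cfsg.Agent.ChevalleyStructure.RootVec Cfsg.Agent.ChevalleyStructure.RootVecTab
  Cfsg.Agent.ChevalleyStructure.NPerm Cfsg.Agent.ChevalleyStructure.CoxeterGeomTypes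
  Cfsg.Agent.Nodes.RGDChev Cfsg.Agent.Nodes.RGDFold Cfsg.Agent.Nodes

universe u

/-- The building of `G`, with the property `Q` of the common displacements of the good pairs. -/
def HasDis (p : ℕ) (G : Type u) [Group G] {l : ℕ} (M : CoxeterMatrix (Fin l)) (qs : Fin l → ℕ)
    (Q : ∀ (W : Type u) [Group W], CoxeterSystem M W → W → Prop) : Prop :=
  ∃ (W : Type u) (_ : Group W) (_ : Finite W) (cs : CoxeterSystem M W) (C : Type u) (_ : Finite C) (_ : Nonempty C)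
    (_ : MulAction G C) (Δ : Bldg cs C) (_ : Sys Δ G p), Δ.Thick ∧ (∀ i, Δ.Param i (qs i)) ∧
      (∀ g : G, (∀ c : C, g • c = c) → g = 1) ∧ ∀ a b : G, Good p a b → ∀ w ∈ Dis Δ a b, Q W cs w

section

variable {l : ℕ} {W Y : Type u} [Group W] [Group Y] {M : CoxeterMatrix (Fin l)}
  {cs : CoxeterSystem M W} {A : Fin l → Fin l → ℤ} {h : IsCartan M A} {p : ℕ} {T : Subgroup Y} {n : Fin l → Y}
  {X : (Fin l → ℤ) → Subgroup Y} [Finite W] [Finite Y] [hpf : Fact p.Prime]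

theorem hasDis_of_rgd {W : Type*} [Group W] [Finite W] {cs : CoxeterSystem M W} {h : IsCartan M A}
    (R : RGD cs h p T n X) (hgen : B cs h T X ⊔ NN cs R.nsys = ⊤) [IsSimpleGroup Y] (i0 : Fin l)
    {qs : Fin l → ℕ} (hqs : ∀ i, Nat.card (X (sr i)) = qs i)
    {Q : ∀ (W : Type u) [Group W], CoxeterSystem M W → W → Prop}
    (hQ : ∀ (_ : (((R.bnPair hgen).B ⊓ (R.bnPair hgen).N).subgroupOf (R.bnPair hgen).N).Normal)
      (cs' : CoxeterSystem M (WP (R.bnPair hgen)))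
      (hcs : ∀ i, cs'.simple i = QuotientGroup.mk
        (⟨(eS R hgen i : Y), (R.bnPair hgen).subset (eS R hgen i).2⟩ : (R.bnPair hgen).N)),
      (B cs h T X).normalCore = ⊥ → ∀ a b : Y, Good p a b → ∀ w ∈ Dis (Bl R hgen cs' hcs) a b, Q _ cs' w) :
    HasDis p Y M qs Q := by
  have hcore : (B cs h T X).normalCore = ⊥ :=
    normalCore_eq_bot (R.bnPair hgen) ⟨_, ((eS R hgen) i0).2⟩
  obtain ⟨hN, cs', hcs, hW, -⟩ := exists_setup R hgen hcore
  have hth : (Bl R hgen cs' hcs).Thick := thick (R.bnPair hgen) (eS R hgen) cs' hcs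
  refine ⟨WP (R.bnPair hgen), inferInstance, hW, cs', Y ⧸ (R.bnPair hgen).B, inferInstance, ⟨ch R hgen 1⟩,
    inferInstance, Bl R hgen cs' hcs, Sy R hgen cs' hcs hcore, hth, fun i x => ?_, fun g hg => ?_,
    hQ hN cs' hcs hcore⟩
  · rw [← hqs]
    exact Cfsg.Agent.OddHalf.NI.FTwo.IdentRgd.card_pan R hgen cs' hcs i x
  · have h1 : g ∈ (B cs h T X).normalCore := by
      intro k
      have h2 := hg (ch R hgen k⁻¹)
      rw [FixBN.OfBN.smul_mk_eq, inv_inv] at h2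
      exact h2
    rw [hcore] at h1
    exact Subgroup.mem_bot.1 h1

end

/-! ### Untwisted groups -/

section Untw

variable {D : ChevalleyDatum} {l : ℕ} {M : CoxeterMatrix (Fin l)} (hp : IsType D l M) {K : Type u} [Field K]
  [Fintype K]

include hp in
theorem card_untw (i : Fin l) :
    Nat.card ↥((XV D l K (sr i)).subgroupOf (D.group K)) = Fintype.card K := by
  rw [← vec_simple hp i, H568.card_XV hp (simple_lt hp.inList (lt_rank hp i)), Nat.card_eq_fintype_card]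

include hp in
/-- `E₆, E₇, E₈, F₄`, `q ≥ 3`: no reflection -/
theorem hasDis_refl (p : ℕ) [Fact p.Prime] [CharP K p] (i0 : Fin l) [IsSimpleGroup ↥(D.group K)]
    (hi : ∀ i : Fin l, ∃ k : Fin l, D.cartan k (D.reflectRoot i (D.simple k)) - D.cartan k (D.simple k) = -1)
    (hq : 3 ≤ Fintype.card K) :
    HasDis p ↥(D.group K) M (fun _ => Fintype.card K) (fun _ _ cs w => ∀ i, w ≠ cs.simple i) := by
  have hW : Finite M.Group := finite_W hp M.toCoxeterSystem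
  refine hasDis_of_rgd (rgd (K := K) hp M.toCoxeterSystem p)
    (rgd_gen_of_G1 (rgd (K := K) hp M.toCoxeterSystem p) (RGDChev.G1_eq_top hp _)) i0 (card_untw hp)
    fun hN cs' hcs hcore a b hab w hw i hwi => ?_
  rw [hwi] at hw
  exact simple_not_mem hp _ cs' hcs hcore (hi i) hq hab hw

end Untw

section Fam

variable {K : Type u} [Field K] [Fintype K] (p : ℕ) [Fact p.Prime] [CharP K p]

theorem fw_eq_one {I W W' : Type*} [Group W] [Group W'] {M : CoxeterMatrix I} {cs : CoxeterSystem M W}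
    {cs' : CoxeterSystem M W'} {w : W'} (h : fw cs' cs w = 1) : w = 1 := by
  rw [← fw_fw cs cs' w, h, map_one]

theorem fw_eq_w0 {I W W' : Type*} [Fintype I] [DecidableEq I] [Group W] [Group W'] {M : CoxeterMatrix I}
    {cs : CoxeterSystem M W} {cs' : CoxeterSystem M W'} [Cox cs] [Cox cs'] {w : W'} (h : fw cs' cs w = w0 cs) :
    w = w0 cs' := by
  rw [← fw_fw cs cs' w, h]
  exact fw_wJ cs cs' Set.univ

/-- `F₄(q)`, `q ≥ 4` -/
theorem hasDis_F4 [IsSimpleGroup ↥(chevF4.group K)] (hq : 4 ≤ Fintype.card K) :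
    HasDis p ↥(chevF4.group K) CoxeterMatrix.F₄ (fun _ => Fintype.card K) (fun _ _ _ w => w = 1) := by
  have hp : IsType chevF4 4 CoxeterMatrix.F₄ := by simp [IsType, typeList]
  have hW : Finite CoxeterMatrix.F₄.Group := RGDChev.finite_W hp CoxeterMatrix.F₄.toCoxeterSystem
  refine hasDis_of_rgd (rgd (K := K) hp CoxeterMatrix.F₄.toCoxeterSystem p)
    (rgd_gen_of_G1 (rgd (K := K) hp CoxeterMatrix.F₄.toCoxeterSystem p) (RGDChev.G1_eq_top hp _)) 0 (card_untw hp) fun hN cs' hcs hcore a b hab w hw => ?_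
  rw [← fw_fw CoxeterMatrix.F₄.toCoxeterSystem cs' w] at hw
  exact fw_eq_one (eq_one_of_tab hp _ cs' hcs hcore tabF4 tabF4_ok hq hab hw)

/-- `F₄(3)` -/
theorem hasDis_F4_three [IsSimpleGroup ↥(chevF4.group K)] (hq : 3 ≤ Fintype.card K) :
    HasDis p ↥(chevF4.group K) CoxeterMatrix.F₄ (fun _ => Fintype.card K) (fun _ _ cs w => w = 1 ∨ w = w0 cs) := by
  have hp : IsType chevF4 4 CoxeterMatrix.F₄ := by simp [IsType, typeList]
  have hW : Finite CoxeterMatrix.F₄.Group := RGDChev.finite_W hp CoxeterMatrix.F₄.toCoxeterSystem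
  refine hasDis_of_rgd (rgd (K := K) hp CoxeterMatrix.F₄.toCoxeterSystem p)
    (rgd_gen_of_G1 (rgd (K := K) hp CoxeterMatrix.F₄.toCoxeterSystem p) (RGDChev.G1_eq_top hp _)) 0 (card_untw hp) fun hN cs' hcs hcore a b hab w hw => ?_
  have hW' := Finite.of_equiv _ (fw CoxeterMatrix.F₄.toCoxeterSystem cs').toEquiv
  rw [← fw_fw CoxeterMatrix.F₄.toCoxeterSystem cs' w] at hw
  exact (dis_F4 hp _ cs' hcs hcore hq hab hw).imp fw_eq_one fw_eq_w0

/-- `G₂(q)`, `q ≥ 4` -/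
theorem hasDis_G2 [IsSimpleGroup ↥(chevG2.group K)] (hq : 4 ≤ Fintype.card K) :
    HasDis p ↥(chevG2.group K) CoxeterMatrix.G₂ (fun _ => Fintype.card K) (fun _ _ _ w => w = 1) := by
  have hp : IsType chevG2 2 CoxeterMatrix.G₂ := by simp [IsType, typeList]
  have hW : Finite CoxeterMatrix.G₂.Group := RGDChev.finite_W hp CoxeterMatrix.G₂.toCoxeterSystem
  refine hasDis_of_rgd (rgd (K := K) hp CoxeterMatrix.G₂.toCoxeterSystem p)
    (rgd_gen_of_G1 (rgd (K := K) hp CoxeterMatrix.G₂.toCoxeterSystem p) (RGDChev.G1_eq_top hp _)) 0 (card_untw hp) fun hN cs' hcs hcore a b hab w hw => ?_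
  rw [← fw_fw CoxeterMatrix.G₂.toCoxeterSystem cs' w] at hw
  exact fw_eq_one (eq_one_of_tab hp _ cs' hcs hcore tabG2 tabG2_ok hq hab hw)

/-- `G₂(3)` -/
theorem hasDis_G2_three [IsSimpleGroup ↥(chevG2.group K)] (hq : 3 ≤ Fintype.card K) :
    HasDis p ↥(chevG2.group K) CoxeterMatrix.G₂ (fun _ => Fintype.card K) (fun _ _ cs w => w = 1 ∨ w = w0 cs) := by
  have hp : IsType chevG2 2 CoxeterMatrix.G₂ := by simp [IsType, typeList]
  have hW : Finite CoxeterMatrix.G₂.Group := RGDChev.finite_W hp CoxeterMatrix.G₂.toCoxeterSystem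
  refine hasDis_of_rgd (rgd (K := K) hp CoxeterMatrix.G₂.toCoxeterSystem p)
    (rgd_gen_of_G1 (rgd (K := K) hp CoxeterMatrix.G₂.toCoxeterSystem p) (RGDChev.G1_eq_top hp _)) 0 (card_untw hp) fun hN cs' hcs hcore a b hab w hw => ?_
  have hW' := Finite.of_equiv _ (fw CoxeterMatrix.G₂.toCoxeterSystem cs').toEquiv
  rw [← fw_fw CoxeterMatrix.G₂.toCoxeterSystem cs' w] at hw
  exact (dis_G2 hp _ cs' hcs hcore hq hab hw).imp fw_eq_one fw_eq_w0

theorem bf_sr : KFacts.TwESix.Comb.bf (sr 0) (sr 0) = 4 ∧ KFacts.TwESix.Comb.bf (sr 1) (sr 1) = 4 ∧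
    ¬ KFacts.TwESix.Comb.bf (sr 2) (sr 2) = 4 ∧ ¬ KFacts.TwESix.Comb.bf (sr 3) (sr 3) = 4 := by decide +kernel

/-- `²E₆(q)`, `q ≥ 3` -/
theorem hasDis_twE6 {q : ℕ} (hqp : IsPrimePow q) (hK : Fintype.card K = q ^ 2) (hq : 3 ≤ q)
    [IsSimpleGroup ↥(twistedE6 K q)] :
    HasDis p ↥(twistedE6 K q) CoxeterMatrix.F₄ ![q, q, q ^ 2, q ^ 2]
      (fun _ _ _ w => w = 1) := by
  obtain ⟨φ, hφ, hqq⟩ := TwE6Basic.exists_frob hqp hK
  have hW : Finite CoxeterMatrix.F₄.Group := RGDFold.finite_W (hp := RGDTwE6.hp) (CoxeterMatrix.F₄).toCoxeterSystem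
    RGDTwE6.isCartan RGDTwE6.foldData
  refine hasDis_of_rgd (RGDFold.rgd CoxeterMatrix.F₄.toCoxeterSystem RGDTwE6.isCartan RGDTwE6.foldData
    (RGDTwE6.foldGrp hφ hqq) p) (rgd_gen_of_G1 (RGDFold.rgd CoxeterMatrix.F₄.toCoxeterSystem RGDTwE6.isCartan
      RGDTwE6.foldData (RGDTwE6.foldGrp hφ hqq) p) (RGDFold.G1_eq_top _ RGDTwE6.isCartan RGDTwE6.foldData
      (RGDTwE6.foldGrp hφ hqq) p)) 0 (fun i => ?_)
    fun hN cs' hcs hcore a b hab w hw => ?_
  · refine (H568.OwnCharTw.card_X CoxeterMatrix.F₄.toCoxeterSystem hφ hqq hK (by omega) p (isRoot_sr _ _ i)).trans ?_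
    obtain ⟨b0, b1, b2, b3⟩ := bf_sr
    fin_cases i
    · show q ^ (if KFacts.TwESix.Comb.bf (sr 0) (sr 0) = 4 then 1 else 2) = q
      rw [if_pos b0, pow_one]
    · show q ^ (if KFacts.TwESix.Comb.bf (sr 1) (sr 1) = 4 then 1 else 2) = q
      rw [if_pos b1, pow_one]
    · show q ^ (if KFacts.TwESix.Comb.bf (sr 2) (sr 2) = 4 then 1 else 2) = q ^ 2
      rw [if_neg b2]
    · show q ^ (if KFacts.TwESix.Comb.bf (sr 3) (sr 3) = 4 then 1 else 2) = q ^ 2
      rw [if_neg b3]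
  · rw [← fw_fw CoxeterMatrix.F₄.toCoxeterSystem cs' w] at hw
    exact fw_eq_one (dis_E6 hφ hqq _ cs' hcs hcore hK hq hab hw)

/-- `³D₄(q)` -/
theorem hasDis_twD4 {q : ℕ} (hqp : IsPrimePow q) (hK : Fintype.card K = q ^ 3) [IsSimpleGroup ↥(twistedD4 K q)] :
    HasDis p ↥(twistedD4 K q) CoxeterMatrix.G₂ (fun i => if i = 0 then q else q ^ 3)
      (fun _ _ cs w => w = 1 ∨ (q = 2 ∧ ∃ u, u * w * u⁻¹ = cs.simple 0)) := by
  obtain ⟨φ, hφ⟩ := D4Fixed.exists_frob hqp hK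
  have hle := D4Fixed.twisted_le_fix hK hφ
  have hW : Finite CoxeterMatrix.G₂.Group := RGDFold.finite_W (hp := RGDTwD4.hp) (CoxeterMatrix.G₂).toCoxeterSystem
    RGDTwD4.isCartan RGDTwD4.foldData
  refine hasDis_of_rgd (RGDFold.rgd CoxeterMatrix.G₂.toCoxeterSystem RGDTwD4.isCartan RGDTwD4.foldData
    (RGDTwD4.foldGrp hφ hle) p) (rgd_gen_of_G1 (RGDFold.rgd CoxeterMatrix.G₂.toCoxeterSystem RGDTwD4.isCartan
      RGDTwD4.foldData (RGDTwD4.foldGrp hφ hle) p) (RGDFold.G1_eq_top _ RGDTwD4.isCartan RGDTwD4.foldData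
      (RGDTwD4.foldGrp hφ hle) p)) 0 (fun i => ?_)
    fun hN cs' hcs hcore a b hab w hw => ?_
  · exact H934.RowTwD4.card_X hφ hqp.one_lt hK i
  · rw [← fw_fw CoxeterMatrix.G₂.toCoxeterSystem cs' w] at hw
    rcases dis_D4 hφ hle _ cs' hcs hcore hK hqp.two_le hab hw with h1 | ⟨h1, ⟨u, hu⟩, -⟩
    · exact Or.inl (fw_eq_one h1)
    · refine Or.inr ⟨h1, fw CoxeterMatrix.G₂.toCoxeterSystem cs' u, ?_⟩
      rw [← fw_simple CoxeterMatrix.G₂.toCoxeterSystem cs' 0, ← hu, map_mul, map_mul, map_inv, fw_fw]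

end Fam

end Cfsg.Agent.H82.AH
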