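import Cfsg.Agent.H82.AH.Pack

/-!
# S2451 (helper82): the buildings of the exceptional groups, without condition on the displacements
-/

set_option autoImplicit false
set_option linter.unusedSectionVars false

open scoped Pointwise

namespace Cfsg.Agent.H82.AH

open CoxeterSystem Cfsg.Agent.ChevalleyStructure.CoxeterGeom Cfsg.Agent.Tits.Roots Cfsg.Agent.Tits.Core
  Cfsg.Agent.Tits.RootComb Cfsg.Agent.Nodes.Comb Cfsg.Agent.Nodes.Reps Cfsg.Agent.Nodes.BNOf Cfsg.Agent.Nodes.BNOf.RGD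
  Cfsg.Agent.FixBN Cfsg.Agent.Tits.OfBN Cfsg.Agent.Tits.OppRes Cfsg.Agent.LieExceptional.BNPairCore
  Cfsg.Agent.OddHalf.Table.AutBldg Cfsg.Agent.OddHalf.Table.AutRGD Cfsg.Agent.OddHalf.Table.AutNorm
  Cfsg.Agent.Tits Cfsg.Agent.Nodes.RGDLib Cfsg.Agent.UGT.U2.FOne
open Cfsg.Agent.Tits.Core.Bldg Cfsg.Agent.H197.Cls
open Cfsg.Lie Cfsg.Agent.ChevalleyStructure Cfsg.Agent.ChevalleyStructure.Elts
  Cfsg.Agent.ChevalleyStructure.RootVec Cfsg.Agent.ChevalleyStructure.RootVecTab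
  Cfsg.Agent.ChevalleyStructure.NPerm Cfsg.Agent.ChevalleyStructure.CoxeterGeomTypes
  Cfsg.Agent.Nodes.RGDChev Cfsg.Agent.Nodes.RGDFold Cfsg.Agent.Nodes

universe u

variable {K : Type u} [Field K] [Fintype K] (p : ℕ) [Fact p.Prime] [CharP K p]

theorem hasDis_untw {D : ChevalleyDatum} {l : ℕ} {M : CoxeterMatrix (Fin l)} (hp : IsType D l M)
    (i0 : Fin l) [IsSimpleGroup ↥(D.group K)] :
    HasDis p ↥(D.group K) M (fun _ => Fintype.card K) (fun _ _ _ _ => True) := by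
  have hW : Finite M.Group := finite_W hp M.toCoxeterSystem
  exact hasDis_of_rgd (rgd (K := K) hp M.toCoxeterSystem p)
    (rgd_gen_of_G1 (rgd (K := K) hp M.toCoxeterSystem p) (RGDChev.G1_eq_top hp _)) i0 (card_untw hp)
    fun hN cs' hcs hcore a b hab w hw => trivial

/-- `E₆(q)` -/
theorem hasDis_E6_all [IsSimpleGroup ↥(chevE6.group K)] :
    HasDis p ↥(chevE6.group K) CoxeterMatrix.E₆ (fun _ => Fintype.card K) (fun _ _ _ _ => True) :=
  hasDis_untw p (by simp [IsType, typeList]) 0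

/-- `E₇(q)` -/
theorem hasDis_E7_all [IsSimpleGroup ↥(chevE7.group K)] :
    HasDis p ↥(chevE7.group K) CoxeterMatrix.E₇ (fun _ => Fintype.card K) (fun _ _ _ _ => True) :=
  hasDis_untw p (by simp [IsType, typeList]) 0

/-- `E₈(q)` -/
theorem hasDis_E8_all [IsSimpleGroup ↥(chevE8.group K)] :
    HasDis p ↥(chevE8.group K) CoxeterMatrix.E₈ (fun _ => Fintype.card K) (fun _ _ _ _ => True) :=
  hasDis_untw p (by simp [IsType, typeList]) 0

/-- `F₄(q)` -/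
theorem hasDis_F4_all [IsSimpleGroup ↥(chevF4.group K)] :
    HasDis p ↥(chevF4.group K) CoxeterMatrix.F₄ (fun _ => Fintype.card K) (fun _ _ _ _ => True) :=
  hasDis_untw p (by simp [IsType, typeList]) 0

/-- `G₂(q)` -/
theorem hasDis_G2_all [IsSimpleGroup ↥(chevG2.group K)] :
    HasDis p ↥(chevG2.group K) CoxeterMatrix.G₂ (fun _ => Fintype.card K) (fun _ _ _ _ => True) :=
  hasDis_untw p (by simp [IsType, typeList]) 0

/-- `²E₆(q)` -/
theorem hasDis_twE6_all {q : ℕ} (hqp : IsPrimePow q) (hK : Fintype.card K = q ^ 2)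
    [IsSimpleGroup ↥(twistedE6 K q)] :
    HasDis p ↥(twistedE6 K q) CoxeterMatrix.F₄ ![q, q, q ^ 2, q ^ 2] (fun _ _ _ _ => True) := by
  obtain ⟨φ, hφ, hqq⟩ := TwE6Basic.exists_frob hqp hK
  have hW : Finite CoxeterMatrix.F₄.Group := RGDFold.finite_W (hp := RGDTwE6.hp) (CoxeterMatrix.F₄).toCoxeterSystem
    RGDTwE6.isCartan RGDTwE6.foldData
  refine hasDis_of_rgd (RGDFold.rgd CoxeterMatrix.F₄.toCoxeterSystem RGDTwE6.isCartan RGDTwE6.foldData
    (RGDTwE6.foldGrp hφ hqq) p) (rgd_gen_of_G1 (RGDFold.rgd CoxeterMatrix.F₄.toCoxeterSystem RGDTwE6.isCartan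
      RGDTwE6.foldData (RGDTwE6.foldGrp hφ hqq) p) (RGDFold.G1_eq_top _ RGDTwE6.isCartan RGDTwE6.foldData
      (RGDTwE6.foldGrp hφ hqq) p)) 0 (fun i => ?_)
    fun hN cs' hcs hcore a b hab w hw => trivial
  refine (H568.OwnCharTw.card_X CoxeterMatrix.F₄.toCoxeterSystem hφ hqq hK hqp.one_lt p (isRoot_sr _ _ i)).trans ?_
  obtain ⟨b0, b1, b2, b3⟩ := bf_sr
  fin_cases i
  · show q ^ (if KFacts.TwESix.Comb.bf (sr 0) (sr 0) = 4 then 1 else 2) = q
    rw [if_pos b0, pow_one]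
  · show q ^ (if KFacts.TwESix.Comb.bf (sr 1) (sr 1) = 4 then 1 else 2) = q
    rw [if_pos b1, pow_one]
  · show q ^ (if KFacts.TwESix.Comb.bf (sr 2) (sr 2) = 4 then 1 else 2) = q ^ 2
    rw [if_neg b2]
  · show q ^ (if KFacts.TwESix.Comb.bf (sr 3) (sr 3) = 4 then 1 else 2) = q ^ 2
    rw [if_neg b3]

end Cfsg.Agent.H82.AH
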