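import Cfsg.Agent.H82.AH.Pack
import Cfsg.Agent.H82.AH.D4Two
import Cfsg.Agent.H150.AH.G2
import Cfsg.Agent.H148.Cls.Full
import Cfsg.Agent.H27.AH.Defs
import Cfsg.Agent.H400.LieSimple

/-!
# S2451 (helper82): part (C) for `G₂(q)` and `³D₄(q)`
-/

set_option autoImplicit false
set_option linter.unusedSectionVars false

open scoped Pointwise

namespace Cfsg.Agent.H82.AH

open Cfsg.Agent.Tits.Core Cfsg.Agent.Tits.Core.Bldg Cfsg.Agent.Tits Cfsg.Agent.FixBN
open Cfsg.Agent.H197.Cls Cfsg.Agent.H330.ClassProd Cfsg.Agent.H27.AH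
open Cfsg.Lie

universe u

section

variable {W : Type u} [Group W] {cs : CoxeterSystem CoxeterMatrix.G₂ W} {C : Type u} {Δ : Bldg cs C} {G : Type u}
  [Group G] [MulAction G C] {p : ℕ} [Fact p.Prime]

/-- type `G₂`, `Dis ⊆ {1}` -/
theorem hex_false [Finite W] (S : Sys Δ G p) (hth : Δ.Thick) (hfaith : ∀ g : G, (∀ x : C, g • x = x) → g = 1)
    {a b c : G} (ha : a ≠ 1) (hb : b ≠ 1) (h : AllConj a b c) (hc : PE p c) (hD : ∀ w ∈ Dis Δ a b, w = 1) : False := by
  have hm : orderOf (cs.simple 1 * cs.simple 0) = 6 := by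
    rw [LieRecognition.CoxForm.orderOf_eq cs 1 0]
    decide
  refine H148.Cls.rank_two S hth (H148.Cls.AllConj.good h hc) (fun w hw => hD w hw) h (i := 0) (j := 1) ?_ hm
    (by decide) (by decide) ?_ ?_
  · intro k
    fin_cases k
    · exact Or.inl rfl
    · exact Or.inr rfl
  · by_contra hcon
    push Not at hcon
    exact ha (hfaith a hcon)
  · by_contra hcon
    push Not at hcon
    exact hb (hfaith b hcon)

end

/-- the rows from the building -/
theorem notC_of_hasDis {p : ℕ} [hpf : Fact p.Prime] {G : Type u} [Group G] [Finite G] {qs : Fin 2 → ℕ}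
    {Q : ∀ (W : Type u) [Group W], CoxeterSystem CoxeterMatrix.G₂ W → W → Prop}
    (h : HasDis p G CoxeterMatrix.G₂ qs Q)
    (hQ : ∀ (W : Type u) [Group W] [Finite W] (cs : CoxeterSystem CoxeterMatrix.G₂ W) (C : Type u)
      [Finite C] [Nonempty C] [MulAction G C] (Δ : Bldg cs C) (_ : Sys Δ G p), Δ.Thick → (∀ i, Δ.Param i (qs i)) →
      (∀ g : G, (∀ c : C, g • c = c) → g = 1) → ∀ a b c : G, a ≠ 1 → b ≠ 1 → AllConj a b c → PE p c →
      (∀ w ∈ Dis Δ a b, Q W cs w) → ∀ w ∈ Dis Δ a b, w = 1) : NotC p G := by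
  intro a b c ha hb hc hall hpc
  obtain ⟨W, _, _, cs, C, _, _, _, Δ, S, hth, hpar, hfaith, hdis⟩ := h
  have hpe : PE p c := by
    obtain ⟨k, hk⟩ := hpc
    exact ⟨k, by rw [← hk, pow_orderOf_eq_one]⟩
  exact hex_false S hth hfaith ha hb hall hpe
    (hQ W cs C Δ S hth hpar hfaith a b c ha hb hall hpe (hdis a b (H148.Cls.AllConj.good hall hpe)))

/-- **`G₂(q)`, `q ≥ 3`** -/
theorem notC_G2 {p : ℕ} [hpf : Fact p.Prime] (F : Type) [Field F] [Fintype F] [CharP F p]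
    (h3 : 3 ≤ Fintype.card F) : NotC p ↥(Lie.chevG2.group F) := by
  have : IsSimpleGroup ↥(Lie.chevG2.group F) := H400.LieSimple.isSimple_of_lie
    (Or.inr (Or.inr (Or.inr (Or.inr (Or.inr (Or.inr (Or.inl ⟨F, inferInstance, inferInstance, inferInstance,
      Or.inl ⟨h3, ⟨MulEquiv.refl _⟩⟩⟩)))))) : IsLieTypeChar p _)
  refine notC_of_hasDis (hasDis_G2_three p h3) ?_
  intro W _ _ cs C _ _ _ Δ S hth hpar hfaith a b c ha hb hall hpe hD
  exact H150.AH.g2_eq_one S hth hfaith hall hpe ha hb h3 hpar hD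

/-- **`³D₄(q)`** -/
theorem notC_twD4 {p : ℕ} [hpf : Fact p.Prime] (K : Type) [Field K] [Fintype K] [CharP K p] (q : ℕ) (hq : IsPrimePow q)
    (hK : Fintype.card K = q ^ 3) : NotC p ↥(Lie.twistedD4 K q) := by
  have : IsSimpleGroup ↥(Lie.twistedD4 K q) := H400.LieSimple.isSimple_of_lie
    (Or.inr (Or.inr (Or.inr (Or.inr (Or.inr (Or.inr (Or.inr (Or.inl ⟨K, inferInstance, inferInstance, inferInstance, q, hq,
      Or.inr ⟨hK, ⟨MulEquiv.refl _⟩⟩⟩))))))) : IsLieTypeChar p _)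
  have hp2 : q = 2 → p = 2 := by
    rintro rfl
    obtain ⟨n, hn, h1⟩ := FiniteField.card K p
    rw [hK] at h1
    have h2 : p ∣ 2 ^ 3 := by rw [h1]; exact dvd_pow_self p n.2.ne'
    exact (Nat.prime_dvd_prime_iff_eq hn Nat.prime_two).1 (hn.dvd_of_dvd_pow h2)
  refine notC_of_hasDis (hasDis_twD4 p hq hK) ?_
  intro W _ _ cs C _ _ _ Δ S hth hpar hfaith a b c ha hb hall hpe hD w hw
  rcases hD w hw with h1 | ⟨h2, u, hu⟩
  · exact h1
  · exfalso
    obtain rfl := hp2 h2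
    subst h2
    have h0 : cs.simple 0 ∈ Dis Δ a b := by
      rw [← hu]
      exact dis_conj_mem S hth (H148.Cls.AllConj.good hall hpe) hw u
    refine false_of_long S hth hfaith hall hpe (hpar 0) (fun w hw => ?_) h0
    exact (hD w hw).imp id fun h => h.2

end Cfsg.Agent.H82.AH
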