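import Cfsg.Agent.H82.AH.Rig

/-!
# S2451 (helper82): panels with three chambers (`p = 2`)

`Good 2 a b`, `i` a type with panels of three chambers.
* `cyc_cyc`, `tr_tr` : `a⁻¹` and `b` are not both cycles and not both transpositions on a common panel;
* `no_fix` : if `s_i ∈ Dis` and `1 ∉ Dis`, `a * b` does not fix all chambers of a panel stable under `a⁻¹` and `b`;
* `false_of_one` : `s_i, 1 ∈ Dis` but `s_j ∉ Dis` for `j ≠ i` is impossible.
-/

set_option autoImplicit false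
set_option linter.unusedSectionVars false

open scoped Pointwise

namespace Cfsg.Agent.H82.AH

open Cfsg.Agent.Tits.Core Cfsg.Agent.Tits.Core.Bldg Cfsg.Agent.Tits.Exchange Cfsg.Agent.Tits Cfsg.Agent.FixBN
open Cfsg.Agent.H197.Cls

variable {I : Type*} {M : CoxeterMatrix I} {W : Type*} [Group W] {cs : CoxeterSystem M W} {C : Type*}
  {Δ : Bldg cs C} {G : Type*} [Group G] [MulAction G C] (S : Sys Δ G 2)

/-- the third chamber -/
theorem exists_third {i : I} (hq : Δ.Param i 2) {c d : C} (hd : d ∈ Δ.Pan i c) (hne : d ≠ c) :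
    ∃ e ∈ Δ.Pan i c, e ≠ c ∧ e ≠ d ∧ ∀ y ∈ Δ.Pan i c, y = c ∨ y = d ∨ y = e := by
  have h3 : (Δ.Pan i c).ncard = 3 := by
    have := hq c
    rwa [Nat.card_coe_set_eq] at this
  have hfin : (Δ.Pan i c).Finite := Set.finite_of_ncard_ne_zero (by rw [h3]; norm_num)
  have h1 : (Δ.Pan i c \ {c, d}).ncard = 1 := by
    rw [Set.ncard_sdiff ?_ (Set.toFinite _), h3, Set.ncard_pair hne.symm]
    rintro y (rfl | hy)
    · exact Δ.self_mem_Pan i y
    · rw [Set.mem_singleton_iff] at hy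
      rw [hy]; exact hd
  obtain ⟨e, he⟩ := Set.ncard_eq_one.1 h1
  have he' : e ∈ Δ.Pan i c \ {c, d} := by rw [he]; rfl
  refine ⟨e, he'.1, fun h => he'.2 (Or.inl h), fun h => he'.2 (Or.inr h), fun y hy => ?_⟩
  by_cases h2 : y = c
  · exact Or.inl h2
  by_cases h3 : y = d
  · exact Or.inr (Or.inl h3)
  right; right
  have h4 : y ∈ Δ.Pan i c \ {c, d} := ⟨hy, by
    rintro (h5 | h5)
    · exact h2 h5
    · exact h3 h5⟩
  rw [he] at h4
  exact h4

/-- an element of the stabiliser of a panel with three chambers -/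
theorem third_smul {i : I} {c d e : C} {x : G} (hall : ∀ y ∈ Δ.Pan i c, y = c ∨ y = d ∨ y = e)
    (hx : ∀ y ∈ Δ.Pan i c, x • y ∈ Δ.Pan i c) {y u v : C} (hy : y ∈ Δ.Pan i c) {u' v' : C}
    (hu : x • u = u') (hv : x • v = v') (hyu : y ≠ u) (hyv : y ≠ v) {w : C}
    (hw : ∀ t, (t = c ∨ t = d ∨ t = e) → t ≠ u' → t ≠ v' → t = w) : x • y = w := by
  refine hw _ (hall _ (hx y hy)) ?_ ?_
  · rw [← hu]; exact fun h => hyu (smul_left_cancel x h)
  · rw [← hv]; exact fun h => hyv (smul_left_cancel x h)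

variable [F : OppRes.Cox cs]

include S

theorem stab_pan {i : I} {c : C} {x : G} (h : x • c ∈ Δ.Pan i c) : ∀ y ∈ Δ.Pan i c, x • y ∈ Δ.Pan i c := by
  intro y hy
  have h1 := smul_mem_Pan S (g := x) hy
  rwa [Δ.Pan_eq_of_mem h] at h1

/-- **not both cycles** -/
theorem cyc_cyc {a b : G} (hab : Good 2 a b) {i : I} {c d e : C} (hd : d ∈ Δ.Pan i c)
    (he : e ∈ Δ.Pan i c) (hdc : d ≠ c) (hec : e ≠ c) (hed : e ≠ d)
    (hall : ∀ y ∈ Δ.Pan i c, y = c ∨ y = d ∨ y = e) (ha1 : a⁻¹ • c = d) (ha2 : a⁻¹ • d = e)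
    (hb1 : b • c = d) (hb2 : b • d = e) : False := by
  have hw : ∀ t, (t = c ∨ t = d ∨ t = e) → t ≠ d → t ≠ e → t = c := by
    rintro t (h | h | h) h1 h2
    · exact h
    · exact absurd h h1
    · exact absurd h h2
  have ha3 : a⁻¹ • e = c :=
    third_smul hall (stab_pan S (by rw [ha1]; exact hd)) he ha1 ha2 hec hed hw
  have hb3 : b • e = c :=
    third_smul hall (stab_pan S (by rw [hb1]; exact hd)) he hb1 hb2 hec hed hw
  obtain ⟨u, hu, hud⟩ := S.exists_move (x := c) (z := d) (z' := e) (by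
    rw [Δ.δ_symm_simple (Δ.δ_eq_of_mem_Pan hd (Δ.self_mem_Pan i c) hdc),
      Δ.δ_symm_simple (Δ.δ_eq_of_mem_Pan he (Δ.self_mem_Pan i c) hec)])
  have huc : u • c = c := S.fix c u hu
  have hue : u • e = d :=
    third_smul hall (stab_pan S (by rw [huc]; exact Δ.self_mem_Pan i c)) he huc hud hec hed (by
      rintro t (h | h | h) h1 h2
      · exact absurd h h1
      · exact h
      · exact absurd h h2)
  have e1 : (a * (u * b * u⁻¹)) • c = d := by
    have h1 : u⁻¹ • c = c := by rw [inv_smul_eq_iff, huc]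
    rw [mul_smul, mul_smul, mul_smul, h1, hb1, hud, ← ha2, smul_inv_smul]
  have e2 : (a * (u * b * u⁻¹)) • e = c := by
    have h1 : u⁻¹ • e = d := by rw [inv_smul_eq_iff, hud]
    rw [mul_smul, mul_smul, mul_smul, h1, hb2, hue, ← ha1, smul_inv_smul]
  have e3 : (a * (u * b * u⁻¹)) • d = e := by
    have h1 : u⁻¹ • d = e := by rw [inv_smul_eq_iff, hue]
    rw [mul_smul, mul_smul, mul_smul, h1, hb3, huc, ← ha3, smul_inv_smul]
  obtain ⟨y, hy, hyy⟩ := exists_fixed_pan S (hab u) (i := i) (x := c) (by rw [e1]; exact hd)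
  rcases hall y hy with rfl | rfl | rfl
  · exact hdc (e1.symm.trans hyy)
  · exact hed (e3.symm.trans hyy)
  · exact hec (e2.symm.trans hyy).symm

/-- **not both transpositions** -/
theorem tr_tr {a b : G} (hab : Good 2 a b) {i : I} {c d e : C} (hd : d ∈ Δ.Pan i c)
    (he : e ∈ Δ.Pan i c) (hdc : d ≠ c) (hec : e ≠ c) (hed : e ≠ d)
    (hall : ∀ y ∈ Δ.Pan i c, y = c ∨ y = d ∨ y = e) (ha1 : a⁻¹ • c = d) (ha2 : a⁻¹ • d = c)
    (hb1 : b • c = d) (hb2 : b • d = c) : False := by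
  have hw : ∀ t, (t = c ∨ t = d ∨ t = e) → t ≠ d → t ≠ c → t = e := by
    rintro t (h | h | h) h1 h2
    · exact absurd h h2
    · exact absurd h h1
    · exact h
  have ha3 : a⁻¹ • e = e :=
    third_smul hall (stab_pan S (by rw [ha1]; exact hd)) he ha1 ha2 hec hed hw
  have hb3 : b • e = e :=
    third_smul hall (stab_pan S (by rw [hb1]; exact hd)) he hb1 hb2 hec hed hw
  obtain ⟨u, hu, hud⟩ := S.exists_move (x := c) (z := d) (z' := e) (by
    rw [Δ.δ_symm_simple (Δ.δ_eq_of_mem_Pan hd (Δ.self_mem_Pan i c) hdc),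
      Δ.δ_symm_simple (Δ.δ_eq_of_mem_Pan he (Δ.self_mem_Pan i c) hec)])
  have huc : u • c = c := S.fix c u hu
  have hue : u • e = d :=
    third_smul hall (stab_pan S (by rw [huc]; exact Δ.self_mem_Pan i c)) he huc hud hec hed (by
      rintro t (h | h | h) h1 h2
      · exact absurd h h1
      · exact h
      · exact absurd h h2)
  -- `u b u⁻¹ = (c e)`, `a = (c d)`
  have e1 : (a * (u * b * u⁻¹)) • c = e := by
    have h1 : u⁻¹ • c = c := by rw [inv_smul_eq_iff, huc]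
    have h2 : a • e = e := by rw [← inv_smul_eq_iff.1 ha3]
    rw [mul_smul, mul_smul, mul_smul, h1, hb1, hud, h2]
  have e2 : (a * (u * b * u⁻¹)) • e = d := by
    have h1 : u⁻¹ • e = d := by rw [inv_smul_eq_iff, hud]
    rw [mul_smul, mul_smul, mul_smul, h1, hb2, huc, ← ha2, smul_inv_smul]
  have e3 : (a * (u * b * u⁻¹)) • d = c := by
    have h1 : u⁻¹ • d = e := by rw [inv_smul_eq_iff, hue]
    rw [mul_smul, mul_smul, mul_smul, h1, hb3, hue, ← ha1, smul_inv_smul]
  obtain ⟨y, hy, hyy⟩ := exists_fixed_pan S (hab u) (i := i) (x := c) (by rw [e1]; exact he)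
  rcases hall y hy with rfl | rfl | rfl
  · exact hec (e1.symm.trans hyy)
  · exact hdc (e3.symm.trans hyy).symm
  · exact hed (e2.symm.trans hyy).symm

/-- **no pointwise fixed panel** -/
theorem no_fix {a b : G} (hab : Good 2 a b) {i : I} (hq : Δ.Param i 2) (h1 : (1 : W) ∉ Dis Δ a b) {c : C}
    (hc : Δ.δ c (a⁻¹ • c) = cs.simple i) (hfix : ∀ y ∈ Δ.Pan i c, b • y = a⁻¹ • y) : False := by
  have hd : a⁻¹ • c ∈ Δ.Pan i c := Δ.mem_Pan_of_δ hc
  have hdc : a⁻¹ • c ≠ c := (Δ.ne_of_δ_simple hc).symm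
  obtain ⟨e, he, hec, hed, hall⟩ := exists_third hq hd hdc
  have hne : ∀ y ∈ Δ.Pan i c, a⁻¹ • y ≠ y := by
    intro y hy hyy
    apply h1
    have h2 := mem_dis (Δ := Δ) S (hfix y hy)
    rw [hfix y hy, hyy, Δ.δ_self] at h2
    exact h2
  have hstab := stab_pan S (x := a⁻¹) hd
  have ha2 : a⁻¹ • (a⁻¹ • c) = e := by
    rcases hall _ (hstab _ hd) with h | h | h
    · exfalso
      -- `e` is fixed
      refine hne e he (third_smul hall hstab he (x := a⁻¹) rfl h hec hed ?_)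
      rintro t (h2 | h2 | h2) h3 h4
      · exact absurd h2 h4
      · exact absurd h2 h3
      · exact h2
    · exact absurd h (hne _ hd)
    · exact h
  exact cyc_cyc S hab hd he hdc hec hed hall rfl ha2 (hfix c (Δ.self_mem_Pan i c)) (by rw [hfix _ hd, ha2])

variable [Finite W] [Finite I] [Finite G] (hth : Δ.Thick) (hfaith : ∀ g : G, (∀ x : C, g • x = x) → g = 1)

include hth hfaith in
/-- the asymmetric case: `a⁻¹` is a cycle, `b` a transposition of a common panel -/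
theorem false_of_cyc_tr {a b : G} (hab : Good 2 a b) {i : I} (hq : Δ.Param i 2) (h1 : (1 : W) ∈ Dis Δ a b)
    (hj : ∀ j, j ≠ i → cs.simple j ∉ Dis Δ a b) {c d e : C} (hd : d ∈ Δ.Pan i c)
    (he : e ∈ Δ.Pan i c) (hdc : d ≠ c) (hec : e ≠ c) (hed : e ≠ d)
    (hall : ∀ y ∈ Δ.Pan i c, y = c ∨ y = d ∨ y = e) (ha1 : a⁻¹ • c = d) (ha2 : a⁻¹ • d = e)
    (hb1 : b • c = d) (hb2 : b • d = c) : False := by
  have ha3 : a⁻¹ • e = c :=
    third_smul hall (stab_pan S (by rw [ha1]; exact hd)) he ha1 ha2 hec hed (by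
      rintro t (h | h | h) h1 h2
      · exact h
      · exact absurd h h1
      · exact absurd h h2)
  -- `a` is trivial on the `i`-panels of its fixed chambers
  have htriv : ∀ c1 : C, a • c1 = c1 → ∀ y ∈ Δ.Pan i c1, a • y = y := by
    intro c1 hc1 y hy
    by_contra hne
    have hyc : y ≠ c1 := by rintro rfl; exact hne hc1
    have hy' : a • y ∈ Δ.Pan i c1 := stab_pan S (by rw [hc1]; exact Δ.self_mem_Pan i c1) y hy
    have hyc' : a • y ≠ c1 := fun h => hyc (smul_left_cancel a (h.trans hc1.symm))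
    obtain ⟨t, ht, htc, hty, hall'⟩ := exists_third hq hy hyc
    have e1 : a • y = t := by
      rcases hall' _ hy' with h | h | h
      · exact absurd h hyc'
      · exact absurd h hne
      · exact h
    have e2 : a • t = y := by
      refine third_smul hall' (stab_pan S (by rw [hc1]; exact Δ.self_mem_Pan i c1)) ht hc1 e1 htc hty ?_
      rintro s (h | h | h) h2 h3
      · exact absurd h h2
      · exact h
      · exact absurd h h3
    -- move `y, t` to `c, d`
    have hyt : Δ.δ y t = Δ.δ c d := by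
      rw [Δ.δ_eq_of_mem_Pan hy ht hty.symm, Δ.δ_eq_of_mem_Pan (Δ.self_mem_Pan i c) hd hdc.symm]
    obtain ⟨g, hg1, hg2⟩ := exists_smul_pair S hth hyt
    have g1 : g⁻¹ • c = y := by rw [inv_smul_eq_iff, hg1]
    have g2 : g⁻¹ • d = t := by rw [inv_smul_eq_iff, hg2]
    refine tr_tr S (hab.conjL g) hd he hdc hec hed hall ?_ ?_ hb1 hb2
    · rw [inv_smul_eq_iff, mul_smul, mul_smul, g2, e2, hg1]
    · rw [inv_smul_eq_iff, mul_smul, mul_smul, g1, e1, hg2]
  -- a common fixed chamber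
  obtain ⟨g, c1, hc1, hbc⟩ := exists_pair S hth h1
  have hac : a⁻¹ • c1 = c1 := (Δ.eq_of_δ_eq_one hc1).symm
  have hac' : a • c1 = c1 := (inv_smul_eq_iff.1 hac).symm
  rw [hac] at hbc
  have hpe : PE 2 a := by
    refine pe_of_mul S hth hfaith hac' (hab g) fun j => ?_
    by_cases hji : j = i
    · subst hji
      exact Or.inl (htriv c1 hac')
    · by_contra hcon
      rw [not_or] at hcon
      obtain ⟨h2, h3⟩ := hcon
      push Not at h2 h3
      obtain ⟨y, hy, hy'⟩ := h2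
      obtain ⟨y2, hy2, hy2'⟩ := h3
      apply hj j hji
      rw [← dis_conj S g]
      have m1 : Mv Δ j a := by
        refine ⟨c1, y, hac', ?_, hy'⟩
        refine Δ.δ_eq_of_mem_Pan (Δ.self_mem_Pan j c1) hy ?_
        rintro rfl
        exact hy' hac'
      have m2 : Mv Δ j (g * b * g⁻¹) := by
        refine ⟨c1, y2, hbc, ?_, hy2'⟩
        refine Δ.δ_eq_of_mem_Pan (Δ.self_mem_Pan j c1) hy2 ?_
        rintro rfl
        exact hy2' hbc
      exact ⟨delta_of_mv S (Mv.inv S m1), delta_of_mv S m2⟩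
  have hpe' : PE 2 a⁻¹ := by
    obtain ⟨k, hk⟩ := hpe
    exact ⟨k, by rw [inv_pow, hk, inv_one]⟩
  obtain ⟨y, hy, hyy⟩ := exists_fixed_pan S hpe' (i := i) (x := c) (by rw [ha1]; exact hd)
  rcases hall y hy with rfl | rfl | rfl
  · exact hdc (ha1.symm.trans hyy)
  · exact hed (ha2.symm.trans hyy)
  · exact hec (ha3.symm.trans hyy).symm

include hth hfaith in
/-- **`1, s_i ∈ Dis`, `s_j ∉ Dis` for the other `j`** -/
theorem false_of_one {a b : G} (hab : Good 2 a b) {i : I} (hq : Δ.Param i 2) (h1 : (1 : W) ∈ Dis Δ a b)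
    (hi : cs.simple i ∈ Dis Δ a b) (hj : ∀ j, j ≠ i → cs.simple j ∉ Dis Δ a b) : False := by
  obtain ⟨g, c, hc, hbc⟩ := exists_pair S hth hi
  have hab' := hab.conjR g
  rw [← dis_conj S g] at h1 hi
  have hj' : ∀ j, j ≠ i → cs.simple j ∉ Dis Δ a (g * b * g⁻¹) := by
    intro j hji
    rw [dis_conj S g]
    exact hj j hji
  set b' := g * b * g⁻¹ with hb'
  have hd : a⁻¹ • c ∈ Δ.Pan i c := Δ.mem_Pan_of_δ hc
  have hdc : a⁻¹ • c ≠ c := (Δ.ne_of_δ_simple hc).symm
  obtain ⟨e, he, hec, hed, hall⟩ := exists_third hq hd hdc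
  have key : ∀ x : G, x • c = a⁻¹ • c → x • (a⁻¹ • c) = c ∨ x • (a⁻¹ • c) = e := by
    intro x hx
    rcases hall _ (stab_pan S (by rw [hx]; exact hd) _ hd) with h | h | h
    · exact Or.inl h
    · exact absurd (smul_left_cancel x (h.trans hx.symm)) hdc
    · exact Or.inr h
  rcases key a⁻¹ rfl with ha | ha <;> rcases key b' hbc with hb | hb
  · exact tr_tr S hab' hd he hdc hec hed hall rfl ha hbc hb
  · -- exchange the two
    refine false_of_cyc_tr S hth hfaith (a := b'⁻¹) (b := a⁻¹) hab'.inv hq ?_ ?_ hd he hdc hec hed hall ?_ ?_ rfl ha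
    · obtain ⟨h2, h3⟩ := h1
      exact ⟨by rwa [inv_inv], h2⟩
    · intro j hji hj2
      obtain ⟨h2, h3⟩ := hj2
      exact hj' j hji ⟨h3, by rwa [inv_inv] at h2⟩
    · rw [inv_inv, hbc]
    · rw [inv_inv, hb]
  · exact false_of_cyc_tr S hth hfaith hab' hq h1 hj' hd he hdc hec hed hall rfl ha hbc hb
  · exact cyc_cyc S hab' hd he hdc hec hed hall rfl ha hbc hb

end Cfsg.Agent.H82.AH
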