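import Cfsg.Agent.H197.Cls.Tor
import Cfsg.Agent.UGT.U2.FOne.AptA

/-!
# S2451 (helper82): the common displacements centralise the torus

`R` a generating root group datum with abelian torus `T`: if all products of `a` with the conjugates of `b` are
`p`-elements and `w ∈ Dis a b`, each representative `m` of `w` centralises `T`.
-/

set_option autoImplicit false
set_option linter.unusedSectionVars false

open scoped Pointwise

namespace Cfsg.Agent.H82.AH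

open CoxeterSystem Cfsg.Agent.ChevalleyStructure.CoxeterGeom Cfsg.Agent.Tits.Roots Cfsg.Agent.Tits.Core
  Cfsg.Agent.Tits.RootComb Cfsg.Agent.Nodes.Comb Cfsg.Agent.Nodes.Reps Cfsg.Agent.Nodes.BNOf Cfsg.Agent.Nodes.BNOf.RGD
  Cfsg.Agent.FixBN Cfsg.Agent.Tits.OfBN Cfsg.Agent.Tits.OppRes Cfsg.Agent.LieExceptional.BNPairCore
  Cfsg.Agent.OddHalf.Table.AutBldg Cfsg.Agent.OddHalf.Table.AutRGD Cfsg.Agent.OddHalf.Table.AutNorm
  Cfsg.Agent.Tits Cfsg.Agent.Nodes.RGDLib Cfsg.Agent.UGT.U2.FOne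
open Cfsg.Agent.Tits.Core.Bldg Cfsg.Agent.H197.Cls

variable {I W Y : Type*} [Fintype I] [DecidableEq I] [Group W] [Group Y] {M : CoxeterMatrix I}
  {cs : CoxeterSystem M W} {A : I → I → ℤ} {h : IsCartan M A} {p : ℕ} {T : Subgroup Y} {n : I → Y}
  {X : (I → ℤ) → Subgroup Y} [Finite W]

variable (R : RGD cs h p T n X) (hgen : B cs h T X ⊔ NN cs R.nsys = ⊤)
  [hN : (((R.bnPair hgen).B ⊓ (R.bnPair hgen).N).subgroupOf (R.bnPair hgen).N).Normal]
  (cs' : CoxeterSystem M (WP (R.bnPair hgen)))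
  (hcs : ∀ i, cs'.simple i = QuotientGroup.mk
    (⟨(eS R hgen i : Y), (R.bnPair hgen).subset (eS R hgen i).2⟩ : (R.bnPair hgen).N))

include R in
/-- `T ∩ U = 1`. -/
theorem eq_one_of_T_U [Fact p.Prime] {t : Y} (ht : t ∈ T) (hu : t ∈ Sup X (Pos cs h)) : t = 1 := by
  obtain ⟨k, hk⟩ := R.isPGroup_Upos ⟨t, hu⟩
  have h1 : t ^ p ^ k = 1 := congrArg Subtype.val hk
  have h2 : (⟨t, ht⟩ : T) ^ Nat.card T = 1 := pow_card_eq_one'
  have h3 : t ^ Nat.card T = 1 := congrArg Subtype.val h2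
  have h4 : orderOf t ∣ 1 := by
    have h5 : Nat.gcd (Nat.card T) (p ^ k) = 1 := R.tcop.pow_right k
    rw [← h5]
    exact Nat.dvd_gcd (orderOf_dvd_of_pow_eq_one h3) (orderOf_dvd_of_pow_eq_one h1)
  exact orderOf_eq_one_iff.1 (Nat.dvd_one.1 h4)

variable [Finite Y] [hpf : Fact p.Prime] (hcore : (B cs h T X).normalCore = ⊥)

include hcore in
/-- **The common displacements centralise the torus.** -/
theorem comm_of_mem_dis [Cox cs'] (hT : ∀ s ∈ T, ∀ t ∈ T, s * t = t * s) {a b : Y} (hab : Good p a b) {w : W} {m : Y}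
    (hm : Rp cs R.nsys w m) (hw : fw cs cs' w ∈ Dis (Bl R hgen cs' hcs) a b) {t : Y} (ht : t ∈ T) :
    m⁻¹ * t * m = t := by
  set S := Sy R hgen cs' hcs hcore with hS
  have hth : (Bl R hgen cs' hcs).Thick := thick (R.bnPair hgen) (eS R hgen) cs' hcs
  obtain ⟨g, c, hc, hbc⟩ := exists_pair S hth hw
  have hδ : (Bl R hgen cs' hcs).δ (ch R hgen 1) (ch R hgen m) = fw cs cs' w := by
    rw [δ_rp R hgen cs' hcs rp_one hm, inv_one, one_mul]
  obtain ⟨k, hk1, hk2⟩ := exists_smul_pair S hth (x := c) (y := a⁻¹ • c) (x' := ch R hgen 1)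
    (y' := ch R hgen m) (by rw [hc, hδ])
  -- the conjugates
  set a1 := k * a * k⁻¹ with ha1
  set b1 := k * (g * b * g⁻¹) * k⁻¹ with hb1
  have hgood : Good p a1 b1 := (hab.conjR g |>.conjR k).conjL k
  have e1 : b1 • ch R hgen 1 = ch R hgen m := by
    rw [← hk2, ← hbc, ← hk1, hb1, mul_smul, mul_smul, inv_smul_smul]
  have e2 : a1⁻¹ • ch R hgen 1 = ch R hgen m := by
    rw [← hk2, ← hk1, ha1]
    have : (k * a * k⁻¹)⁻¹ = k * a⁻¹ * k⁻¹ := by group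
    rw [this, mul_smul, mul_smul, inv_smul_smul]
  -- `t` fixes both chambers
  have htm : m⁻¹ * t * m ∈ T := by
    have h1 := (Subgroup.mem_normalizer_iff.1 hm.inv.mem_normalizer t).1 ht
    rwa [inv_inv] at h1
  have ht1 : t • ch R hgen 1 = ch R hgen 1 := by
    rw [FixBN.OfBN.smul_mk_eq, inv_one, one_mul, mul_one]
    exact (T_le_B ht : t ∈ B cs h T X)
  have ht2 : t • ch R hgen m = ch R hgen m := by
    rw [FixBN.OfBN.smul_mk_eq]
    exact (T_le_B htm : _ ∈ B cs h T X)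
  have key := tor S hgood (c := ch R hgen 1) (by rw [e1, e2]) (h := t) ht1 (by rw [e1, ht2])
  rw [e1, mem_Sy] at key
  -- `b1 = m * (s * u)`
  have hb2 : m⁻¹ * b1 ∈ B cs h T X := by
    have h1 : (QuotientGroup.mk (b1 * 1) : Y ⧸ (R.bnPair hgen).B) = QuotientGroup.mk m := e1
    have h2 := FixBN.OfBN.mk_eq.1 h1.symm
    rwa [mul_one] at h2
  obtain ⟨s, hs, u, hu, e3⟩ := R.mem_B.1 hb2
  have e4 : b1 = m * (s * u) := by rw [← e3]; group
  have e5 : m⁻¹ * (t * (b1 * t⁻¹ * b1⁻¹)) * m = (m⁻¹ * t * m) * (s * (u * t⁻¹ * u⁻¹) * s⁻¹) := by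
    rw [e4]; group
  rw [e5] at key
  have hst : s * t⁻¹ * s⁻¹ = t⁻¹ := by
    rw [hT s hs t⁻¹ (inv_mem ht)]; group
  -- `u t⁻¹ u⁻¹ = t⁻¹ u'`
  have hu' : t * u * t⁻¹ * u⁻¹ ∈ Sup X (Pos cs h) := by
    have h1 := (Subgroup.mem_normalizer_iff.1 (R.T_le_normalizer_U ht) u).1 hu
    exact mul_mem h1 (inv_mem hu)
  have hu'' : s * (t * u * t⁻¹ * u⁻¹) * s⁻¹ ∈ Sup X (Pos cs h) :=
    (Subgroup.mem_normalizer_iff.1 (R.T_le_normalizer_U hs) _).1 hu'
  have e6 : (m⁻¹ * t * m) * (s * (u * t⁻¹ * u⁻¹) * s⁻¹) =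
      (m⁻¹ * t * m) * t⁻¹ * (s * (t * u * t⁻¹ * u⁻¹) * s⁻¹) := by
    have h1 : s * (u * t⁻¹ * u⁻¹) * s⁻¹ = (s * t⁻¹ * s⁻¹) * (s * (t * u * t⁻¹ * u⁻¹) * s⁻¹) := by group
    rw [h1, hst]; group
  rw [e6] at key
  have h7 : (m⁻¹ * t * m) * t⁻¹ ∈ Sup X (Pos cs h) := by
    have h8 := mul_mem key (inv_mem hu'')
    rwa [mul_inv_cancel_right] at h8
  have h9 := eq_one_of_T_U R (mul_mem htm (inv_mem ht)) h7
  exact mul_inv_eq_one.1 h9

end Cfsg.Agent.H82.AH
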